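import Cfsg.Agent.H215.J7.Iface_mg
import Cfsg.Agent.Transfer.PGroupNormal
import Mathlib.RingTheory.LittleWedderburn
import Mathlib.RingTheory.Ideal.Quotient.Defs
import Mathlib.RingTheory.Nilpotent.Basic
import Mathlib.Tactic.NoncommRing
import Mathlib.Tactic.Ring
import Mathlib.Data.Fintype.EquivFin
import Mathlib.GroupTheory.PGroup
import Mathlib.LinearAlgebra.Dual.Lemmas
import Mathlib.LinearAlgebra.Dimension.Finrank
import Mathlib.Algebra.Module.ZMod
import Mathlib.Algebra.CharP.Lemmas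
import Mathlib.Algebra.CharP.Algebra
import Mathlib.GroupTheory.Nilpotent
import Cfsg.Agent.PLocal.ThompsonReplacement
import Cfsg.Agent.PLocal.ThompsonJA
import Cfsg.Agent.H39.FTMain
import Cfsg.Agent.Transfer.Tate
import Cfsg.Agent.H40.Critical
import Cfsg.Agent.H35.Chief
set_option linter.all false

-- part: H352/J7/RD
section
/-!
# S3068, T5: existence of `R` and `D` (helper352, task 3640)
-/

set_option autoImplicit false

namespace Cfsg.Agent.H352.J7

open Subgroup Cfsg Cfsg.Agent.H215.J7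
open scoped commutatorElement

universe u

variable {G : Type u} [Group G] [Finite G] {p : ℕ} [Fact p.Prime]

theorem zz_normal {X : Type*} [Group X] (Q : Subgroup X) [Q.Normal] : (ZZ Q).Normal := by
  unfold ZZ
  infer_instance

theorem vv_normal {X : Type*} [Group X] (p : ℕ) (Q : Subgroup X) [Q.Normal] : (VV p Q).Normal := by
  refine ⟨fun v hv g => ?_⟩
  rw [mem_VV] at hv ⊢
  refine ⟨(zz_normal Q).conj_mem v hv.1 g, ?_⟩
  rw [conj_pow, hv.2, mul_one, mul_inv_cancel]

/-- a nontrivial normal subgroup of `X` in a normal `p`-subgroup `Q` meets `Ω₁(Z(Q))` -/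
theorem exists_vv {X : Type*} [Group X] [Finite X] {Q N : Subgroup X} (hQ : IsPGroup p Q) [N.Normal]
    (hN : N ≠ ⊥) (hNQ : N ≤ Q) : ∃ z ∈ N, z ∈ VV p Q ∧ z ≠ 1 := by
  have h0 : N.subgroupOf Q ≠ ⊥ := by
    rw [Ne, subgroupOf_eq_bot]
    intro h
    exact hN (by rw [← inf_eq_left.2 hNQ]; exact h.eq_bot)
  obtain ⟨z, hz, hzc, ho⟩ := Cfsg.Agent.Transfer.PGroupNormal.exists_mem_inf_center_orderOf hQ (N.subgroupOf Q) h0
  refine ⟨z, mem_subgroupOf.1 hz, ?_, ?_⟩
  · rw [mem_VV]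
    refine ⟨⟨z.2, mem_centralizer_iff.2 ?_⟩, ?_⟩
    · intro g hg
      exact congrArg Subtype.val (mem_center_iff.1 hzc ⟨g, hg⟩)
    · have h1 := pow_orderOf_eq_one z
      rw [ho] at h1
      exact congrArg Subtype.val h1
  · intro h
    have h1 : z = 1 := Subtype.ext h
    rw [h1, orderOf_one] at ho
    exact (Fact.out : p.Prime).one_lt.ne ho

/-- chief factors in a `p`-group -/
theorem chief_le {Q R B : Subgroup G} [Q.Normal] [hR : R.Normal] (hQ : IsPGroup p Q) (hB : IsChiefFactor B R)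
    (hBQ : B ≤ Q) : B.map (QuotientGroup.mk' R) ≤ VV p (Q.map (QuotientGroup.mk' R)) := by
  obtain ⟨h1, h2, -, h4⟩ := hB
  have : (B.map (QuotientGroup.mk' R)).Normal := h2.map _ (QuotientGroup.mk'_surjective R)
  have : (Q.map (QuotientGroup.mk' R)).Normal := ‹Q.Normal›.map _ (QuotientGroup.mk'_surjective R)
  have hVn := vv_normal p (Q.map (QuotientGroup.mk' R))
  obtain ⟨z, hz, hzv, hz1⟩ := exists_vv (p := p) (Q := Q.map (QuotientGroup.mk' R)) (N := B.map (QuotientGroup.mk' R))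
    (hQ.map _) (by
      intro h
      rw [Subgroup.map_eq_bot_iff, QuotientGroup.ker_mk'] at h
      exact absurd h1 (not_lt_of_ge h)) (map_mono hBQ)
  have h5 := h4 (B ⊓ (VV p (Q.map (QuotientGroup.mk' R))).comap (QuotientGroup.mk' R)) inferInstance
    (le_inf h1.le (by
      intro r hr
      rw [mem_comap, show QuotientGroup.mk' R r = 1 from (QuotientGroup.eq_one_iff r).2 hr]
      exact one_mem _)) inf_le_left
  rcases h5 with h5 | h5
  · exfalso
    obtain ⟨b, hb, rfl⟩ := hz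
    have h6 : b ∈ R := by
      rw [← h5]
      exact ⟨hb, hzv⟩
    exact hz1 ((QuotientGroup.eq_one_iff b).2 h6)
  · rw [map_le_iff_le_comap]
    exact inf_eq_left.1 h5

theorem t5_exists_RD (Q : Subgroup G) (hQ : Q.Normal) (hQp : IsPGroup p Q) : ∃ R D : Subgroup G, RD p Q R D := by
  obtain ⟨R, hRm⟩ := (Set.toFinite {R : Subgroup G | R.Normal ∧ R ≤ Q ∧ Ab R}).exists_maximal
    ⟨⊥, inferInstance, bot_le, by
      intro a ha b hb
      rw [mem_bot] at ha hb
      rw [ha, hb]⟩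
  obtain ⟨hRn, hRQ, hRa⟩ := hRm.prop
  have hmax : ∀ T : Subgroup G, T.Normal → T ≤ Q → Ab T → R ≤ T → T = R := fun T h1 h2 h3 h4 =>
    (hRm.eq_of_le ⟨h1, h2, h3⟩ h4).symm
  set 𝓑 : Set (Subgroup G) := {B | IsChiefFactor B R ∧ B ≤ Q ⊓ centralizer (R : Set G)} with h𝓑
  have hBn : (sSup 𝓑).Normal := sSup_normal 𝓑 fun B hB => hB.1.2.1
  set D : Subgroup G := R ⊔ sSup 𝓑 with hD
  have hDn : D.Normal := inferInstance
  have hRC : R ≤ centralizer (R : Set G) := by
    intro x hx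
    rw [mem_centralizer_iff]
    intro y hy
    exact hRa y hy x hx
  have hDQC : D ≤ Q ⊓ centralizer (R : Set G) := sup_le (le_inf hRQ hRC) (sSup_le fun B hB => hB.2)
  have hDR : ∀ x ∈ D, ∀ y ∈ R, x * y = y * x := by
    intro x hx y hy
    exact (mem_centralizer_iff.1 (hDQC hx).2 y hy).symm
  have hDV : D.map (QuotientGroup.mk' R) ≤ VV p (Q.map (QuotientGroup.mk' R)) := by
    rw [map_le_iff_le_comap]
    refine sup_le ?_ (sSup_le ?_)
    · intro r hr
      rw [mem_comap, show QuotientGroup.mk' R r = 1 from (QuotientGroup.eq_one_iff r).2 hr]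
      exact one_mem _
    · intro B hB
      rw [← map_le_iff_le_comap]
      exact chief_le hQp hB.1 (hB.2.trans inf_le_left)
  refine ⟨R, D, ⟨hRn, hDn, le_sup_left, hDQC.trans inf_le_left, hRa, ?_, hDR, ?_, ?_, ?_, ?_⟩⟩
  · have hZn := zz_normal Q
    have h1 : ZZ Q ⊔ R = R := by
      refine hmax _ inferInstance (sup_le inf_le_left hRQ) ?_ le_sup_right
      intro a ha b hb
      have h2 : ∀ c ∈ ZZ Q ⊔ R, ∃ z ∈ ZZ Q, ∃ r ∈ R, z * r = c := fun c hc => mem_sup_of_normal_right.1 hc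
      obtain ⟨z, hz, r, hr, rfl⟩ := h2 a ha
      obtain ⟨z', hz', r', hr', rfl⟩ := h2 b hb
      have k1 : ∀ q ∈ Q, Commute q z := fun q hq => mem_centralizer_iff.1 hz.2 q hq
      have k2 : ∀ q ∈ Q, Commute q z' := fun q hq => mem_centralizer_iff.1 hz'.2 q hq
      have k3 : Commute r r' := hRa r hr r' hr'
      exact (((k1 z' hz'.1).symm.mul_right (k1 r' (hRQ hr')).symm).mul_left
        ((k2 r (hRQ hr)).mul_right k3)).eq
    rw [← h1]
    exact le_sup_left
  · rw [commutator_le]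
    intro d hd q hq
    have h1 := (hDV (mem_map_of_mem _ hd)).1.2
    have h2 := mem_centralizer_iff.1 h1 (QuotientGroup.mk' R q) (mem_map_of_mem _ hq)
    rw [← QuotientGroup.eq_one_iff, ← QuotientGroup.mk'_apply, map_commutatorElement]
    rw [commutatorElement_eq_one_iff_mul_comm]
    exact h2.symm
  · intro x hx
    have h1 := (hDV (mem_map_of_mem _ hx)).2
    rw [← map_pow] at h1
    exact (QuotientGroup.eq_one_iff _).1 h1
  · by_contra hC
    have hCn : (Q ⊓ centralizer (D : Set G)).Normal := inferInstance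
    set C := Q ⊓ centralizer (D : Set G) with hCdef
    have hlt : R < C ⊔ R := lt_of_le_of_ne le_sup_right (fun h => hC (h ▸ le_sup_left))
    obtain ⟨B, hBm⟩ := (Set.toFinite {B : Subgroup G | B.Normal ∧ R < B ∧ B ≤ C ⊔ R}).exists_minimal
      ⟨C ⊔ R, inferInstance, hlt, le_rfl⟩
    obtain ⟨hBn', hRB, hBC⟩ := hBm.prop
    have hCR : C ≤ centralizer (R : Set G) := inf_le_right.trans (centralizer_le (SetLike.coe_subset_coe.2 le_sup_left))
    have hch : IsChiefFactor B R := by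
      refine ⟨hRB, hBn', hRn, fun N hN h1 h2 => ?_⟩
      rcases h1.lt_or_eq with h3 | h3
      · exact Or.inr (hBm.eq_of_le ⟨hN, h3, h2.trans hBC⟩ h2)
      · exact Or.inl h3.symm
    have hBD : B ≤ D := (le_sSup (show B ∈ 𝓑 from ⟨hch, hBC.trans (sup_le (le_inf inf_le_left hCR) (le_inf hRQ hRC))⟩)).trans
      le_sup_right
    have hBab : Ab B := by
      intro a ha b hb
      obtain ⟨c, hc, r, hr, rfl⟩ := mem_sup_of_normal_right.1 (hBC ha)
      have k1 : Commute b c := mem_centralizer_iff.1 hc.2 b (hBD hb)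
      have k2 : Commute b r := hDR b (hBD hb) r hr
      exact (k1.mul_right k2).symm.eq
    exact hRB.ne (hmax B hBn' (hBD.trans (hDQC.trans inf_le_left)) hBab hRB.le).symm
  · refine sup_le le_sup_left (sSup_le fun B hB => ?_)
    exact (le_sSup (show B ∈ {B : Subgroup G | IsChiefFactor B R ∧ B ≤ D} from
      ⟨hB.1, (le_sSup hB).trans le_sup_right⟩)).trans le_sup_right

end Cfsg.Agent.H352.J7
end

-- part: H215/J7/DMod
section
/-!
# The module `D / R` with the commutator form (S3068)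
-/

set_option autoImplicit false

namespace Cfsg.Agent.H215.J7

open Subgroup Cfsg
open scoped commutatorElement

universe u

variable {G : Type u} [Group G]

/-- what is needed for the module -/
structure Pre (p : ℕ) (Q R D : Subgroup G) : Prop where
  Qn : Q.Normal
  Rn : R.Normal
  Dn : D.Normal
  le : R ≤ D
  leQ : D ≤ Q
  DR : ∀ x ∈ D, ∀ y ∈ R, x * y = y * x
  DQ : ⁅D, Q⁆ ≤ R
  pow : ∀ x ∈ D, x ^ p ∈ R

theorem RD.pre {p : ℕ} {Q R D : Subgroup G} (hQ : Q.Normal) (h : RD p Q R D) : Pre p Q R D :=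
  ⟨hQ, h.Rn, h.Dn, h.le, h.leQ, h.DR, h.DQ, h.pow⟩

theorem RD.pre_chief {p : ℕ} {Q R D B : Subgroup G} (hQ : Q.Normal) (h : RD p Q R D) (hB : IsChiefFactor B R)
    (hBD : B ≤ D) : Pre p Q R B :=
  ⟨hQ, h.Rn, hB.2.1, hB.1.le, hBD.trans h.leQ, fun x hx y hy => h.DR x (hBD hx) y hy,
    (commutator_mono hBD le_rfl).trans h.DQ, fun x hx => h.pow x (hBD hx)⟩

/-- `D / R` and `Ω₁(Z(Q))` as modules, the commutator form -/
structure DMod (p : ℕ) (Q R D : Subgroup G) where
  W : Type u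
  V : Type u
  iW : AddCommGroup W
  iV : AddCommGroup V
  aW : DistribMulAction G W
  aV : DistribMulAction G V
  fW : Finite W
  fV : Finite V
  w : G → W
  w_add : ∀ x ∈ D, ∀ y ∈ D, w (x * y) = w x + w y
  w_surj : ∀ u : W, ∃ x ∈ D, w x = u
  w_zero : ∀ x ∈ D, w x = 0 ↔ x ∈ R
  w_smul : ∀ (g : G), ∀ x ∈ D, w (g * x * g⁻¹) = g • w x
  v : G → V
  v_add : ∀ x ∈ VV p Q, ∀ y ∈ VV p Q, v (x * y) = v x + v y
  v_surj : ∀ u : V, ∃ x ∈ VV p Q, v x = u
  v_zero : ∀ x ∈ VV p Q, v x = 0 ↔ x = 1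
  v_smul : ∀ (g : G), ∀ x ∈ VV p Q, v (g * x * g⁻¹) = g • v x
  f : W →+ W →+ V
  f_mem : ∀ x ∈ D, ∀ y ∈ D, ⁅x, y⁆ ∈ VV p Q
  f_eq : ∀ x ∈ D, ∀ y ∈ D, f (w x) (w y) = v ⁅x, y⁆

/-- the action on the section -/
@[reducible] def secAct (D R : Subgroup G) [hD : D.Normal] [hR : R.Normal] :
    MulDistribMulAction G (↥D ⧸ R.subgroupOf D) where
  smul g := QuotientGroup.map (R.subgroupOf D) (R.subgroupOf D) (MulAut.conjNormal g).toMonoidHom (by
    intro x hx
    exact hR.conj_mem _ hx g)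
  one_smul := by
    intro x
    obtain ⟨x, rfl⟩ := QuotientGroup.mk_surjective x
    show QuotientGroup.mk _ = QuotientGroup.mk _
    congr 1
    apply Subtype.ext
    show (1 : G) * x * (1 : G)⁻¹ = x
    simp
  mul_smul := by
    intro k l x
    obtain ⟨x, rfl⟩ := QuotientGroup.mk_surjective x
    show QuotientGroup.mk _ = QuotientGroup.mk _
    congr 1
    apply Subtype.ext
    show (k * l) * x * (k * l)⁻¹ = k * (l * x * l⁻¹) * k⁻¹
    group
  smul_mul := by
    intro k x y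
    exact map_mul _ _ _
  smul_one := by
    intro k
    exact map_one _

/-- the additive action -/
@[reducible] def addAct (X V : Type*) [Group X] [CommGroup V] [MulDistribMulAction X V] :
    DistribMulAction X (Additive V) where
  smul x v := Additive.ofMul (x • Additive.toMul v)
  one_smul v := congrArg Additive.ofMul (one_smul X (Additive.toMul v))
  mul_smul x y v := congrArg Additive.ofMul (mul_smul x y (Additive.toMul v))
  smul_zero x := congrArg Additive.ofMul (smul_one x)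
  smul_add x v w := congrArg Additive.ofMul (smul_mul' x (Additive.toMul v) (Additive.toMul w))

variable [Finite G] {p : ℕ} {Q R D : Subgroup G}

omit [Finite G] in
theorem Pre.mem_ZZ (h : Pre p Q R D) {x y : G} (hx : x ∈ D) (hy : y ∈ D) : ⁅x, y⁆ ∈ ZZ Q := by
  have hR := h.Rn
  have hQ := h.Qn
  have hD := h.Dn
  have h0 : ⁅R, D⁆ = ⊥ := by
    rw [eq_bot_iff, commutator_le]
    intro r hr d hd
    rw [mem_bot, commutatorElement_eq_one_iff_mul_comm]
    exact (h.DR d hd r hr).symm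
  -- `[D, D, Q] = 1`
  have h1 : ⁅⁅D, D⁆, Q⁆ = ⊥ := by
    apply Subgroup.commutator_commutator_eq_bot_of_rotate
    · rw [eq_bot_iff, ← h0]
      exact commutator_mono h.DQ le_rfl
    · rw [eq_bot_iff, ← h0]
      exact commutator_mono (by rw [commutator_comm]; exact h.DQ) le_rfl
  have hD1 : ⁅x, y⁆ ∈ D := (commutator_le_left D D) (commutator_mem_commutator hx hy)
  refine ⟨h.leQ hD1, mem_centralizer_iff.2 ?_⟩
  intro q hq
  have h2 : ⁅⁅x, y⁆, q⁆ ∈ ⁅⁅D, D⁆, Q⁆ := commutator_mem_commutator (commutator_mem_commutator hx hy) hq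
  rw [h1, mem_bot, commutatorElement_eq_one_iff_mul_comm] at h2
  exact h2.symm

omit [Finite G] in
theorem Pre.comm_left (h : Pre p Q R D) {x x' y : G} (hx : x ∈ D) (hx' : x' ∈ D) (hy : y ∈ D) :
    ⁅x * x', y⁆ = ⁅x, y⁆ * ⁅x', y⁆ := by
  have h1 := mem_centralizer_iff.1 (h.mem_ZZ hx' hy).2 x (h.leQ hx)
  have e : ⁅x * x', y⁆ = x * ⁅x', y⁆ * x⁻¹ * ⁅x, y⁆ := by
    simp only [commutatorElement_def]; group
  rw [e, h1, mul_inv_cancel_right]
  exact (mem_centralizer_iff.1 (h.mem_ZZ hx hy).2 _ (h.mem_ZZ hx' hy).1)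

omit [Finite G] in
theorem Pre.comm_right (h : Pre p Q R D) {x y y' : G} (hx : x ∈ D) (hy : y ∈ D) (hy' : y' ∈ D) :
    ⁅x, y * y'⁆ = ⁅x, y⁆ * ⁅x, y'⁆ := by
  have h1 := mem_centralizer_iff.1 (h.mem_ZZ hx hy').2 y (h.leQ hy)
  have e : ⁅x, y * y'⁆ = ⁅x, y⁆ * (y * ⁅x, y'⁆ * y⁻¹) := by
    simp only [commutatorElement_def]; group
  rw [e, h1, mul_inv_cancel_right]

omit [Finite G] in
theorem Pre.comm_pow (h : Pre p Q R D) {x y : G} (hx : x ∈ D) (hy : y ∈ D) (n : ℕ) : ⁅x ^ n, y⁆ = ⁅x, y⁆ ^ n := by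
  induction n with
  | zero => simp
  | succ n ih => rw [pow_succ, pow_succ, h.comm_left (pow_mem hx n) hx hy, ih]

omit [Finite G] in
theorem Pre.comm_R (h : Pre p Q R D) {x y : G} (hx : x ∈ R) (hy : y ∈ D) : ⁅x, y⁆ = 1 := by
  rw [commutatorElement_eq_one_iff_mul_comm]
  exact (h.DR y hy x hx).symm

omit [Finite G] in
theorem Pre.mem_VV (h : Pre p Q R D) {x y : G} (hx : x ∈ D) (hy : y ∈ D) : ⁅x, y⁆ ∈ VV p Q :=
  ⟨h.mem_ZZ hx hy, by rw [← h.comm_pow hx hy, h.comm_R (h.pow x hx) hy]⟩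

omit [Finite G] in
theorem Pre.comm_congr (h : Pre p Q R D) {x x' y y' : G} (hx : x ∈ D) (_hx' : x' ∈ D) (hy : y ∈ D) (hy' : y' ∈ D)
    (hxx : x⁻¹ * x' ∈ R) (hyy : y⁻¹ * y' ∈ R) : ⁅x, y⁆ = ⁅x', y'⁆ := by
  have e1 : x' = x * (x⁻¹ * x') := by group
  have e2 : y' = y * (y⁻¹ * y') := by group
  rw [e1, h.comm_left hx (h.le hxx) hy', h.comm_R hxx hy', mul_one, e2, h.comm_right hx hy (h.le hyy)]
  have h3 : ⁅x, y⁻¹ * y'⁆ = 1 := by
    rw [commutatorElement_eq_one_iff_mul_comm]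
    exact h.DR x hx _ hyy
  rw [h3, mul_one]

/-- the module exists -/
theorem Pre.exists_dmod (h : Pre p Q R D) : Nonempty (DMod p Q R D) := by
  classical
  have hR := h.Rn
  have hQ := h.Qn
  have hD := h.Dn
  have hVn : (VV p Q).Normal := H352.J7.vv_normal p Q
  have hDD : ∀ x ∈ D, ∀ y ∈ D, ⁅x, y⁆ ∈ R := fun x hx y hy =>
    h.DQ (commutator_mem_commutator hx (h.leQ hy))
  let iD : CommGroup (↥D ⧸ R.subgroupOf D) :=
    { (inferInstance : Group (↥D ⧸ R.subgroupOf D)) with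
      mul_comm := by
        intro a b
        obtain ⟨a, rfl⟩ := QuotientGroup.mk_surjective a
        obtain ⟨b, rfl⟩ := QuotientGroup.mk_surjective b
        rw [← QuotientGroup.mk_mul, ← QuotientGroup.mk_mul, QuotientGroup.eq, mem_subgroupOf]
        have h1 := hDD _ (inv_mem b.2) _ (inv_mem a.2)
        have e : (((a * b)⁻¹ * (b * a) : ↥D) : G) = ⁅(b : G)⁻¹, (a : G)⁻¹⁆ := by
          simp only [Subgroup.coe_mul, Subgroup.coe_inv, commutatorElement_def]; group
        rw [e]; exact h1 }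
  let aD : MulDistribMulAction G (↥D ⧸ R.subgroupOf D) := secAct D R
  let iV : CommGroup ↥(VV p Q) :=
    { (inferInstance : Group ↥(VV p Q)) with
      mul_comm := by
        intro a b
        apply Subtype.ext
        exact (mem_centralizer_iff.1 a.2.1.2 _ b.2.1.1).symm }
  let aV : MulDistribMulAction G ↥(VV p Q) := MulDistribMulAction.compHom _ (MulAut.conjNormal (H := VV p Q))
  let w : G → Additive (↥D ⧸ R.subgroupOf D) := fun x =>
    if hx : x ∈ D then Additive.ofMul (QuotientGroup.mk (⟨x, hx⟩ : ↥D)) else 0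
  let v : G → Additive ↥(VV p Q) := fun x =>
    if hx : x ∈ VV p Q then Additive.ofMul (⟨x, hx⟩ : ↥(VV p Q)) else 0
  have hw : ∀ x (hx : x ∈ D), w x = Additive.ofMul (QuotientGroup.mk (⟨x, hx⟩ : ↥D)) := fun x hx => dif_pos hx
  have hv : ∀ x (hx : x ∈ VV p Q), v x = Additive.ofMul (⟨x, hx⟩ : ↥(VV p Q)) := fun x hx => dif_pos hx
  have hws : ∀ u : Additive (↥D ⧸ R.subgroupOf D), ∃ x ∈ D, w x = u := by
    intro u
    obtain ⟨x, hx⟩ := QuotientGroup.mk_surjective (Additive.toMul u)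
    exact ⟨x, x.2, (hw x x.2).trans (congrArg Additive.ofMul hx)⟩
  have hwe : ∀ x ∈ D, ∀ y ∈ D, w x = w y → x⁻¹ * y ∈ R := by
    intro x hx y hy hxy
    rw [hw x hx, hw y hy] at hxy
    have h1 := QuotientGroup.eq.1 (Additive.ofMul.injective hxy)
    exact h1
  have hwa : ∀ x ∈ D, ∀ y ∈ D, w (x * y) = w x + w y := by
    intro x hx y hy
    rw [hw x hx, hw y hy, hw _ (mul_mem hx hy)]
    rfl
  have hva : ∀ x ∈ VV p Q, ∀ y ∈ VV p Q, v (x * y) = v x + v y := by
    intro x hx y hy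
    rw [hv x hx, hv y hy, hv _ (mul_mem hx hy)]
    rfl
  choose r hrD hr using hws
  let f : Additive (↥D ⧸ R.subgroupOf D) →+ Additive (↥D ⧸ R.subgroupOf D) →+ Additive ↥(VV p Q) :=
    AddMonoidHom.mk' (fun a => AddMonoidHom.mk' (fun b => v ⁅r a, r b⁆) (by
      intro b c
      have h1 : ⁅r a, r (b + c)⁆ = ⁅r a, r b * r c⁆ := by
        apply h.comm_congr (hrD _) (hrD _) (hrD _) (mul_mem (hrD _) (hrD _)) (by rw [inv_mul_cancel]; exact one_mem _)
        apply hwe _ (hrD _) _ (mul_mem (hrD _) (hrD _))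
        rw [hr, hwa _ (hrD _) _ (hrD _), hr, hr]
      show v ⁅r a, r (b + c)⁆ = v ⁅r a, r b⁆ + v ⁅r a, r c⁆
      rw [h1, h.comm_right (hrD _) (hrD _) (hrD _), hva _ (h.mem_VV (hrD _) (hrD _)) _ (h.mem_VV (hrD _) (hrD _))]))
      (by
        intro a b
        apply AddMonoidHom.ext
        intro c
        have h1 : ⁅r (a + b), r c⁆ = ⁅r a * r b, r c⁆ := by
          apply h.comm_congr (hrD _) (mul_mem (hrD _) (hrD _)) (hrD _) (hrD _) _ (by rw [inv_mul_cancel]; exact one_mem _)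
          apply hwe _ (hrD _) _ (mul_mem (hrD _) (hrD _))
          rw [hr, hwa _ (hrD _) _ (hrD _), hr, hr]
        show v ⁅r (a + b), r c⁆ = v ⁅r a, r c⁆ + v ⁅r b, r c⁆
        rw [h1, h.comm_left (hrD _) (hrD _) (hrD _), hva _ (h.mem_VV (hrD _) (hrD _)) _ (h.mem_VV (hrD _) (hrD _))])
  exact ⟨{
    W := Additive (↥D ⧸ R.subgroupOf D)
    V := Additive ↥(VV p Q)
    iW := inferInstance
    iV := inferInstance
    aW := addAct _ _
    aV := addAct _ _
    fW := inferInstanceAs (Finite (↥D ⧸ R.subgroupOf D))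
    fV := inferInstanceAs (Finite ↥(VV p Q))
    w := w
    w_add := hwa
    w_surj := fun u => ⟨r u, hrD u, hr u⟩
    w_zero := by
      intro x hx
      rw [hw x hx]
      constructor
      · intro h1
        have h2 : (QuotientGroup.mk (⟨x, hx⟩ : ↥D) : ↥D ⧸ R.subgroupOf D) = 1 := h1
        rw [QuotientGroup.eq_one_iff] at h2
        exact h2
      · intro h1
        have h2 : (QuotientGroup.mk (⟨x, hx⟩ : ↥D) : ↥D ⧸ R.subgroupOf D) = 1 := by
          rw [QuotientGroup.eq_one_iff]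
          exact h1
        exact h2
    w_smul := by
      intro g x hx
      rw [hw x hx, hw _ (hD.conj_mem x hx g)]
      rfl
    v := v
    v_add := hva
    v_surj := fun u => ⟨_, (Additive.toMul u).2, hv _ (Additive.toMul u).2⟩
    v_zero := by
      intro x hx
      rw [hv x hx]
      constructor
      · intro h1
        exact congrArg Subtype.val h1
      · intro h1
        exact congrArg Additive.ofMul (Subtype.ext h1)
    v_smul := by
      intro g x hx
      rw [hv x hx, hv _ (hVn.conj_mem x hx g)]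
      rfl
    f := f
    f_mem := fun x hx y hy => h.mem_VV hx hy
    f_eq := by
      intro x hx y hy
      show v ⁅r (w x), r (w y)⁆ = v ⁅x, y⁆
      congr 1
      apply h.comm_congr (hrD _) hx (hrD _) hy
      · exact hwe _ (hrD _) _ hx (hr _)
      · exact hwe _ (hrD _) _ hy (hr _) }⟩

end Cfsg.Agent.H215.J7
end

-- part: H215/J7/Reduced
section
/-!
# Finite reduced rings are commutative
-/

set_option autoImplicit false

namespace Cfsg.Agent.H215.J7.Reduced

variable {R : Type*} [Ring R]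

theorem idem_central (hR : ∀ x : R, x * x = 0 → x = 0) {e : R} (he : e * e = e) (r : R) : e * r = r * e := by
  have h1 : e * r - e * r * e = 0 := by
    apply hR
    have : (e * r - e * r * e) * (e * r - e * r * e) =
      e * r * (e * r) - e * r * (e * r * e) - (e * r * (e * e) * r - e * r * (e * e) * r * e) := by noncomm_ring
    rw [this, he]; noncomm_ring
  have h2 : r * e - e * r * e = 0 := by
    apply hR
    have : (r * e - e * r * e) * (r * e - e * r * e) =
      r * e * r * e - r * (e * e) * r * e - e * r * e * r * e + e * r * (e * e) * r * e := by noncomm_ring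
    rw [this, he]; noncomm_ring
  rw [sub_eq_zero.1 h1, ← sub_eq_zero.1 h2]

theorem exists_pow (hR : ∀ x : R, x * x = 0 → x = 0) [Finite R] (w : R) : ∃ m : ℕ, 1 ≤ m ∧ w * w ^ m = w := by
  obtain ⟨i, j, hij, h⟩ := Finite.exists_ne_map_eq_of_infinite (fun n : ℕ => w ^ n)
  have hred : IsReduced R := (isReduced_iff_pow_one_lt 2 one_lt_two).2 fun x hx => hR x (by rw [← sq]; exact hx)
  wlog hlt : i < j generalizing i j
  · exact this j i hij.symm h.symm (lt_of_le_of_ne (not_lt.1 hlt) hij.symm)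
  refine ⟨j - i, by omega, ?_⟩
  have h1 : w ^ i * (1 - w ^ (j - i)) = 0 := by
    rw [mul_sub, mul_one, ← pow_add, show i + (j - i) = j by omega, sub_eq_zero]
    exact h
  have hc : Commute w (1 - w ^ (j - i)) := (Commute.one_right w).sub_right ((Commute.refl w).pow_right _)
  have h2 : (w * (1 - w ^ (j - i))) ^ (i + 1) = 0 := by
    rw [hc.mul_pow, pow_succ w, pow_succ (1 - w ^ (j - i))]
    have e : w ^ i * w * ((1 - w ^ (j - i)) ^ i * (1 - w ^ (j - i))) =
        w ^ i * (1 - w ^ (j - i)) * (w * (1 - w ^ (j - i)) ^ i) := by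
      have c1 : Commute w ((1 - w ^ (j - i)) ^ i) := hc.pow_right i
      have c2 : Commute (w * (1 - w ^ (j - i)) ^ i) (1 - w ^ (j - i)) := hc.mul_left ((Commute.refl _).pow_left i)
      calc w ^ i * w * ((1 - w ^ (j - i)) ^ i * (1 - w ^ (j - i)))
          = w ^ i * ((w * (1 - w ^ (j - i)) ^ i) * (1 - w ^ (j - i))) := by simp only [mul_assoc]
        _ = w ^ i * ((1 - w ^ (j - i)) * (w * (1 - w ^ (j - i)) ^ i)) := by rw [c2.eq]
        _ = _ := by simp only [mul_assoc]
    rw [e, h1, zero_mul]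
  have h3 : w * (1 - w ^ (j - i)) = 0 := hred.eq_zero _ ⟨_, h2⟩
  rw [mul_sub, mul_one, sub_eq_zero] at h3
  exact h3.symm

/-- **finite reduced rings are commutative** -/
theorem comm (hR : ∀ x : R, x * x = 0 → x = 0) [Finite R] (x y : R) : x * y = y * x := by
  classical
  by_contra hxy
  have hz : x * y - y * x ≠ 0 := fun h => hxy (sub_eq_zero.1 h)
  set z := x * y - y * x with hzdef
  -- a minimal idempotent `e` with `e z ≠ 0`
  obtain ⟨e, ⟨he, hez⟩, hmin⟩ : ∃ e : R, (e * e = e ∧ e * z ≠ 0) ∧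
      ∀ f : R, f * f = f → f * z ≠ 0 → e * f = f → f = e := by
    let F : Set R := {e | e * e = e ∧ e * z ≠ 0}
    have hF : F.Nonempty := ⟨1, one_mul 1, by rw [one_mul]; exact hz⟩
    obtain ⟨e, he, hm⟩ := Set.exists_min_image F (fun e => Nat.card {r : R // e * r = r}) (Set.toFinite _) hF
    refine ⟨e, he, fun f hf hfz hef => ?_⟩
    by_contra hfe
    have h1 := hm f ⟨hf, hfz⟩
    have hsub : ∀ r : R, f * r = r → e * r = r := fun r hr => by
      rw [← hr, ← mul_assoc, hef]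
    let g : {r : R // f * r = r} → {r : R // e * r = r} := fun r => ⟨r.1, hsub _ r.2⟩
    have hg : Function.Injective g := fun a b hab => Subtype.ext (congrArg (fun t => t.1) hab)
    have hb : Function.Surjective g :=
      ((Nat.bijective_iff_injective_and_card g).2 ⟨hg, le_antisymm (Nat.card_le_card_of_injective g hg) h1⟩).2
    obtain ⟨r, hr⟩ := hb ⟨e, he.1⟩
    have hr' : r.1 = e := congrArg (fun t => t.1) hr
    have h2 : f * e = e := by rw [← hr']; exact r.2
    apply hfe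
    rw [← h2, idem_central hR hf, hef]
  have hce : ∀ r, e * r = r * e := idem_central hR he
  -- nonzero elements of `e R` have a power equal to `e`
  have hinv : ∀ w : R, e * w = w → w ≠ 0 → ∃ m : ℕ, w ^ (m + 1) = e := by
    intro w hw hw0
    obtain ⟨m, hm1, hm⟩ := exists_pow hR w
    obtain ⟨k, rfl⟩ : ∃ k, m = k + 1 := ⟨m - 1, by omega⟩
    refine ⟨k, ?_⟩
    set f := w ^ (k + 1) with hf
    have hff : f * f = f := by
      have : f * f = w ^ k * (w * w ^ (k + 1)) := by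
        rw [hf, ← mul_assoc, ← pow_succ]
      rw [this, hm, ← pow_succ]
    have hef : e * f = f := by
      rw [hf, pow_succ', ← mul_assoc, hw]
    have hf0 : f ≠ 0 := by
      intro h
      rw [h, mul_zero] at hm
      exact hw0 hm.symm
    by_cases hfz : f * z = 0
    · exfalso
      have h1 : (e - f) * z ≠ 0 := by rw [sub_mul, hfz, sub_zero]; exact hez
      have h2 : (e - f) * (e - f) = e - f := by
        rw [sub_mul, mul_sub, mul_sub, he, hef, hff, ← hce f, hef]; abel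
      have h3 : e * (e - f) = e - f := by rw [mul_sub, he, hef]
      have h4 := hmin _ h2 h1 h3
      apply hf0
      have : e - (e - f) = 0 := by rw [h4, sub_self]
      rwa [sub_sub_cancel] at this
    · exact hmin f hff hfz hef
  -- the quotient by the annihilator of `e`
  let I : Ideal R :=
    { carrier := {r | e * r = 0}
      zero_mem' := mul_zero e
      add_mem' := by
        intro a b ha hb
        show e * (a + b) = 0
        rw [mul_add, show e * a = 0 from ha, show e * b = 0 from hb, add_zero]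
      smul_mem' := by
        intro c r hr
        show e * (c * r) = 0
        rw [← mul_assoc, hce c, mul_assoc, show e * r = 0 from hr, mul_zero] }
  have hI : ∀ r, r ∈ I ↔ e * r = 0 := fun r => Iff.rfl
  have hI2 : I.IsTwoSided := ⟨fun b {a} ha => by
    rw [hI] at ha ⊢
    rw [← mul_assoc, ha, zero_mul]⟩
  have hnt : Nontrivial (R ⧸ I) := by
    refine ⟨⟨0, 1, ?_⟩⟩
    intro h
    have h1 : (1 : R) ∈ I := Ideal.Quotient.eq_zero_iff_mem.1 (by rw [map_one]; exact h.symm)
    rw [hI, mul_one] at h1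
    exact hez (by rw [h1, zero_mul])
  have hnzd : NoZeroDivisors (R ⧸ I) := by
    refine ⟨fun {a b} hab => ?_⟩
    obtain ⟨r, rfl⟩ := Ideal.Quotient.mk_surjective a
    obtain ⟨s, rfl⟩ := Ideal.Quotient.mk_surjective b
    rw [← map_mul, Ideal.Quotient.eq_zero_iff_mem, hI] at hab
    rw [Ideal.Quotient.eq_zero_iff_mem, Ideal.Quotient.eq_zero_iff_mem, hI, hI]
    by_cases hr : e * r = 0
    · exact Or.inl hr
    right
    obtain ⟨m, hm⟩ := hinv (e * r) (by rw [← mul_assoc, he]) hr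
    rw [← hm, pow_succ, mul_assoc, mul_assoc e, hab, mul_zero]
  have hdom : IsDomain (R ⧸ I) := NoZeroDivisors.to_isDomain _
  have hfin : Finite (R ⧸ I) := Finite.of_surjective _ (Ideal.Quotient.mk_surjective (I := I))
  have hfield := Finite.isDomain_to_isField (R ⧸ I)
  have h1 := hfield.mul_comm (Ideal.Quotient.mk I x) (Ideal.Quotient.mk I y)
  rw [← map_mul, ← map_mul, ← sub_eq_zero, ← map_sub, Ideal.Quotient.eq_zero_iff_mem, hI] at h1
  exact hez h1

end Cfsg.Agent.H215.J7.Reduced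
end

-- part: H215/J7/EndL
section
/-!
# Invariant forms on irreducible modules (T6 of S3068)

`L` normal in `G`, `G / L` a `p`-group, `U` an irreducible `G`-module over the field with `p` elements, `f : U × U → V`
bilinear and `G`-equivariant, `L` trivial on `V`.  If `(a - 1) ^ (p - 1) = 0` on `U` and `(a - 1) ^ 2 = 0` on `V` then `a`
centralizes `f(U, U)`.
-/

set_option autoImplicit false
set_option linter.unusedSectionVars false

namespace Cfsg.Agent.H215.J7.EndL

open Cfsg.Agent.H215.J7.Form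

/-- the commutator calculus -/
theorem pow_comm {E : Type*} [Ring E] {n A h δ : E} (hA : A = 1 + n) (h1 : A * h = (h + δ) * A) (h2 : δ * A = A * δ)
    (k : ℕ) : n ^ (k + 1) * h = h * n ^ (k + 1) + ((k + 1 : ℕ) : E) * (δ * A * n ^ k) := by
  have hn : n = A - 1 := by rw [hA]; noncomm_ring
  have h0 : n * h = h * n + δ * A := by
    rw [hn, sub_mul, h1, one_mul, mul_sub, mul_one]; noncomm_ring
  have hAn : n * A = A * n := by rw [hA]; noncomm_ring
  have hdn : n * (δ * A) = δ * A * n := by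
    rw [hn, sub_mul, mul_sub, one_mul, mul_one, ← mul_assoc, ← h2]
  induction k with
  | zero => simp [h0]
  | succ k ih =>
    have e : n ^ (k + 1 + 1) * h = n * (n ^ (k + 1) * h) := by rw [pow_succ' n (k + 1), mul_assoc]
    rw [e, ih, mul_add, ← mul_assoc n h, h0, add_mul]
    have e2 : n * (((k + 1 : ℕ) : E) * (δ * A * n ^ k)) = ((k + 1 : ℕ) : E) * (δ * A * n ^ (k + 1)) := by
      rw [← mul_assoc, ← Nat.cast_comm, mul_assoc, ← mul_assoc n, hdn, mul_assoc (δ * A), ← pow_succ']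
    have e3 : h * n * n ^ (k + 1) = h * n ^ (k + 1 + 1) := by rw [pow_succ' n (k + 1), mul_assoc]
    rw [e2, e3]
    push_cast
    noncomm_ring

theorem delta_pow {E : Type*} [Ring E] {p : ℕ} (hk : ∀ k : ℕ, 0 < k → k < p → ∀ x : E, (k : E) * x = 0 → x = 0)
    {n A A' h δ : E} (hA : A = 1 + n) (hA' : A * A' = 1) (h1 : A * h = (h + δ) * A) (h2 : δ * A = A * δ)
    (h3 : δ * h = h * δ) (hn : n ^ (p - 1) = 0) : δ ^ (p - 1) = 0 := by
  have hn' : n = A - 1 := by rw [hA]; noncomm_ring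
  have hAn : A * n = n * A := by rw [hn']; noncomm_ring
  have hnδ : n * δ = δ * n := by rw [hn', sub_mul, mul_sub, h2, one_mul, mul_one]
  have key : ∀ j : ℕ, j ≤ p - 1 → δ ^ j * n ^ (p - 1 - j) = 0 := by
    intro j
    induction j with
    | zero => intro _; rw [pow_zero, one_mul, Nat.sub_zero]; exact hn
    | succ j ih =>
      intro hj
      have h4 := ih (by omega)
      obtain ⟨k, hk'⟩ : ∃ k, p - 1 - j = k + 1 := ⟨p - 1 - j - 1, by omega⟩
      have hk2 : p - 1 - (j + 1) = k := by omega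
      rw [hk'] at h4
      rw [hk2]
      have h5 := pow_comm hA h1 h2 k
      have h6 : δ ^ j * (n ^ (k + 1) * h) = 0 := by rw [← mul_assoc, h4, zero_mul]
      have h7 : δ ^ j * (h * n ^ (k + 1)) = 0 := by
        have hc : Commute (δ ^ j) h := (show Commute δ h from h3).pow_left j
        rw [← mul_assoc, hc.eq, mul_assoc, h4, mul_zero]
      rw [h5, mul_add, h7, zero_add] at h6
      have h8 : ((k + 1 : ℕ) : E) * (δ ^ (j + 1) * n ^ k * A) = 0 := by
        have hc : Commute A (n ^ k) := (show Commute A n from hAn).pow_right k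
        have e : δ ^ (j + 1) * n ^ k * A = δ ^ j * (δ * A * n ^ k) := by
          rw [pow_succ, mul_assoc, ← hc.eq]; simp only [mul_assoc]
        rw [e, ← mul_assoc, Nat.cast_comm, mul_assoc]
        exact h6
      have h9 := hk (k + 1) (by omega) (by omega) _ h8
      have h10 : δ ^ (j + 1) * n ^ k * A * A' = 0 := by rw [h9, zero_mul]
      rwa [mul_assoc, hA', mul_one] at h10
  have := key (p - 1) le_rfl
  rwa [Nat.sub_self, pow_zero, mul_one] at this

variable {G U V : Type*} [Group G] [AddCommGroup U] [Finite U] [AddCommGroup V] [Finite V] [DistribMulAction G U]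
  [DistribMulAction G V] {p : ℕ} [hp : Fact p.Prime]

section Rho

variable [Module (ZMod p) U]

/-- the representation -/
def rho (p : ℕ) (G U : Type*) [Group G] [AddCommGroup U] [DistribMulAction G U] [Module (ZMod p) U] :
    G →* Module.End (ZMod p) U where
  toFun g := (DistribSMul.toAddMonoidHom U g).toZModLinearMap p
  map_one' := by ext u; exact one_smul G u
  map_mul' g h := by ext u; exact mul_smul g h u

theorem rho_apply (g : G) (u : U) : rho p G U g u = g • u := rfl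

/-- the ring of endomorphisms commuting with `L` -/
def HH (p : ℕ) (U : Type*) [AddCommGroup U] [DistribMulAction G U] [Module (ZMod p) U] (L : Subgroup G) :
    Subring (Module.End (ZMod p) U) where
  carrier := {h | ∀ l ∈ L, rho p G U l * h = h * rho p G U l}
  one_mem' := fun l _ => by rw [mul_one, one_mul]
  mul_mem' := by
    intro a b ha hb l hl
    rw [← mul_assoc, ha l hl, mul_assoc, hb l hl, mul_assoc]
  zero_mem' := fun l _ => by rw [mul_zero, zero_mul]
  add_mem' := by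
    intro a b ha hb l hl
    rw [mul_add, add_mul, ha l hl, hb l hl]
  neg_mem' := by
    intro a ha l hl
    rw [mul_neg, neg_mul, ha l hl]

theorem mem_HH {L : Subgroup G} {h : Module.End (ZMod p) U} :
    h ∈ HH p U L ↔ ∀ l ∈ L, rho p G U l * h = h * rho p G U l := Iff.rfl

/-- the group of automorphisms commuting with `L` -/
def HU (p : ℕ) (U : Type*) [AddCommGroup U] [DistribMulAction G U] [Module (ZMod p) U] (L : Subgroup G) :
    Subgroup (Module.End (ZMod p) U)ˣ :=
  Subgroup.centralizer ((rho p G U).toHomUnits '' (L : Set G))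

theorem mem_HU {L : Subgroup G} {σ : (Module.End (ZMod p) U)ˣ} :
    σ ∈ HU p U L ↔ (σ : Module.End (ZMod p) U) ∈ HH p U L := by
  constructor
  · intro h l hl
    have := Subgroup.mem_centralizer_iff.1 h _ ⟨l, hl, rfl⟩
    exact congrArg Units.val this
  · intro h
    refine Subgroup.mem_centralizer_iff.2 ?_
    rintro _ ⟨l, hl, rfl⟩
    exact Units.ext (h l hl)

theorem le_normalizer_HU {L : Subgroup G} (hL : L.Normal) (g : G) :
    (rho p G U).toHomUnits g ∈ Subgroup.normalizer (HU p U L : Set (Module.End (ZMod p) U)ˣ) := by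
  have h1 : ∀ g : G, ∀ σ ∈ HU p U L,
      (rho p G U).toHomUnits g * σ * ((rho p G U).toHomUnits g)⁻¹ ∈ HU p U L := by
    intro g σ hσ
    refine Subgroup.mem_centralizer_iff.2 ?_
    rintro _ ⟨l, hl, rfl⟩
    have h2 := Subgroup.mem_centralizer_iff.1 hσ _ ⟨g⁻¹ * l * g, by simpa using hL.conj_mem l hl g⁻¹, rfl⟩
    rw [map_mul, map_mul, map_inv] at h2
    set r := (rho p G U).toHomUnits g
    set m := (rho p G U).toHomUnits l
    calc m * (r * σ * r⁻¹) = r * (r⁻¹ * m * r * σ) * r⁻¹ := by group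
      _ = r * (σ * (r⁻¹ * m * r)) * r⁻¹ := by rw [h2]
      _ = r * σ * r⁻¹ * m := by group
  rw [Subgroup.mem_normalizer_iff]
  intro σ
  constructor
  · exact fun h => h1 g σ h
  · intro h
    have := h1 g⁻¹ _ h
    rw [map_inv, inv_inv] at this
    have e : ((rho p G U).toHomUnits g)⁻¹ * ((rho p G U).toHomUnits g * σ * ((rho p G U).toHomUnits g)⁻¹) *
        (rho p G U).toHomUnits g = σ := by group
    rwa [e] at this

/-- `p` does not divide the order of the group of `L`-automorphisms of an irreducible `LS`-module -/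
theorem not_dvd [Nontrivial U] {L S : Subgroup G} (hLn : L.Normal) (hS : IsPGroup p S) (hLS : L ⊔ S = ⊤)
    (hirr : ∀ N : AddSubgroup U, (∀ (g : G), ∀ u ∈ N, g • u ∈ N) → N = ⊥ ∨ N = ⊤) :
    ¬ p ∣ Nat.card (HU p U L) := by
  intro hdvd
  have hfin : Finite (Module.End (ZMod p) U) := Finite.of_injective (fun f : Module.End (ZMod p) U => (f : U → U))
    DFunLike.coe_injective
  have hfinu : Finite (Module.End (ZMod p) U)ˣ := inferInstance
  let φ : ↥S →* MulAut ↥(HU p U L) := (HU p U L).normalizerMonoidHom.comp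
    { toFun := fun s => ⟨(rho p G U).toHomUnits (s : G), le_normalizer_HU hLn _⟩
      map_one' := Subtype.ext (map_one _)
      map_mul' := fun s t => Subtype.ext (map_mul _ _ _) }
  let _ : MulDistribMulAction ↥S ↥(HU p U L) := MulDistribMulAction.compHom _ φ
  have h1 := hS.card_modEq_card_fixedPoints (HU p U L)
  have h2 : p ∣ Nat.card (MulAction.fixedPoints ↥S ↥(HU p U L)) :=
    (Nat.modEq_zero_iff_dvd).1 (h1.symm.trans hdvd.modEq_zero_nat)
  let C : Subgroup ↥(HU p U L) := FixedPoints.subgroup ↥S ↥(HU p U L)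
  have h3 : p ∣ Nat.card C := h2
  obtain ⟨σ, hσ⟩ := exists_prime_orderOf_dvd_card' p h3
  set τ : (Module.End (ZMod p) U)ˣ := ((σ : ↥(HU p U L)) : (Module.End (ZMod p) U)ˣ) with hτ
  have hτo : orderOf τ = p := by
    rw [hτ, Subgroup.orderOf_coe, Subgroup.orderOf_coe, hσ]
  -- `τ` commutes with `G`
  have hcomm : ∀ g : G, (rho p G U).toHomUnits g * τ = τ * (rho p G U).toHomUnits g := by
    let K : Subgroup G := (Subgroup.centralizer ({τ} : Set (Module.End (ZMod p) U)ˣ)).comap (rho p G U).toHomUnits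
    have hK : ∀ g, g ∈ K ↔ τ * (rho p G U).toHomUnits g = (rho p G U).toHomUnits g * τ := by
      intro g
      show (rho p G U).toHomUnits g ∈ Subgroup.centralizer ({τ} : Set (Module.End (ZMod p) U)ˣ) ↔ _
      rw [Subgroup.mem_centralizer_singleton_iff]
      exact ⟨fun h => h.symm, fun h => h.symm⟩
    have hLK : L ≤ K := by
      intro l hl
      rw [hK]
      exact (Subgroup.mem_centralizer_iff.1 (σ : ↥(HU p U L)).2 _ ⟨l, hl, rfl⟩).symm
    have hSK : S ≤ K := by
      intro s hs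
      rw [hK]
      have h4 := σ.2 ⟨s, hs⟩
      have h5 : (rho p G U).toHomUnits s * τ * ((rho p G U).toHomUnits s)⁻¹ = τ := congrArg Subtype.val h4
      exact (mul_inv_eq_iff_eq_mul.1 h5).symm
    intro g
    have : g ∈ K := by
      have h6 : (⊤ : Subgroup G) ≤ K := by rw [← hLS]; exact sup_le hLK hSK
      exact h6 (Subgroup.mem_top g)
    exact ((hK g).1 this).symm
  -- the fixed points of `τ`
  let N : AddSubgroup U :=
    { carrier := {u | (τ : Module.End (ZMod p) U) u = u}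
      zero_mem' := map_zero _
      add_mem' := by
        intro u v hu hv
        show (τ : Module.End (ZMod p) U) (u + v) = u + v
        rw [map_add, show (τ : Module.End (ZMod p) U) u = u from hu, show (τ : Module.End (ZMod p) U) v = v from hv]
      neg_mem' := by
        intro u hu
        show (τ : Module.End (ZMod p) U) (-u) = -u
        rw [map_neg, show (τ : Module.End (ZMod p) U) u = u from hu] }
  have hN : ∀ (g : G), ∀ u ∈ N, g • u ∈ N := by
    intro g u hu
    have h4 := congrArg Units.val (hcomm g)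
    have h5 : (τ : Module.End (ZMod p) U) (rho p G U g u) = rho p G U g ((τ : Module.End (ZMod p) U) u) :=
      (LinearMap.congr_fun h4 u).symm
    show (τ : Module.End (ZMod p) U) (rho p G U g u) = rho p G U g u
    rw [h5, show (τ : Module.End (ZMod p) U) u = u from hu]
  have hchar : CharP (Module.End (ZMod p) U) p :=
    charP_of_injective_algebraMap (algebraMap (ZMod p) (Module.End (ZMod p) U)).injective p
  have hτp : τ ^ p = 1 := by
    have := pow_orderOf_eq_one τ
    rwa [hτo] at this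
  have hpow : ((τ : Module.End (ZMod p) U) - 1) ^ p = 0 := by
    rw [sub_pow_char_of_commute p (Commute.one_right _), one_pow, ← Units.val_pow_eq_pow_val, hτp,
      Units.val_one, sub_self]
  rcases hirr N hN with h4 | h4
  · have hinj : Function.Injective ((τ : Module.End (ZMod p) U) - 1 : Module.End (ZMod p) U) := by
      rw [injective_iff_map_eq_zero]
      intro u hu
      have : u ∈ N := sub_eq_zero.1 hu
      rw [h4, AddSubgroup.mem_bot] at this
      exact this
    have hinj2 : ∀ k : ℕ, Function.Injective ((((τ : Module.End (ZMod p) U) - 1) ^ k : Module.End (ZMod p) U)) := by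
      intro k
      induction k with
      | zero => rw [pow_zero]; exact Function.injective_id
      | succ k ih => rw [pow_succ]; exact ih.comp hinj
    obtain ⟨u, hu⟩ := exists_ne (0 : U)
    apply hu
    apply hinj2 p
    rw [hpow, map_zero]; rfl
  · have h5 : τ = 1 := by
      apply Units.ext
      ext u
      have : u ∈ N := by rw [h4]; trivial
      exact this
    rw [h5, orderOf_one] at hτo
    exact hp.out.one_lt.ne hτo

theorem charP_end [Nontrivial U] : CharP (Module.End (ZMod p) U) p :=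
  charP_of_injective_algebraMap (algebraMap (ZMod p) (Module.End (ZMod p) U)).injective p

/-- the ring is reduced -/
theorem reduced [Nontrivial U] {L S : Subgroup G} (hLn : L.Normal) (hS : IsPGroup p S) (hLS : L ⊔ S = ⊤)
    (hirr : ∀ N : AddSubgroup U, (∀ (g : G), ∀ u ∈ N, g • u ∈ N) → N = ⊥ ∨ N = ⊤)
    (x : HH p U L) (hx : x * x = 0) : x = 0 := by
  have hfin : Finite (Module.End (ZMod p) U) := Finite.of_injective (fun f : Module.End (ZMod p) U => (f : U → U))
    DFunLike.coe_injective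
  have hchar : CharP (Module.End (ZMod p) U) p := charP_end
  have hx' : (x : Module.End (ZMod p) U) * x = 0 := congrArg Subtype.val hx
  let u : (Module.End (ZMod p) U)ˣ :=
    { val := 1 + x
      inv := 1 - x
      val_inv := by
        have e : (1 + (x : Module.End (ZMod p) U)) * (1 - x) = 1 - x * x := by noncomm_ring
        rw [e, hx', sub_zero]
      inv_val := by
        have e : (1 - (x : Module.End (ZMod p) U)) * (1 + x) = 1 - x * x := by noncomm_ring
        rw [e, hx', sub_zero] }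
  have hu : u ∈ HU p U L := mem_HU.2 (add_mem (one_mem _) x.2)
  have hp2 : (x : Module.End (ZMod p) U) ^ p = 0 := by
    obtain ⟨k, hk⟩ : ∃ k, p = k + 2 := ⟨p - 2, by have := hp.out.two_le; omega⟩
    have e : (x : Module.End (ZMod p) U) ^ (k + 2) = (x : Module.End (ZMod p) U) ^ k * (x * x) := by
      rw [pow_add, sq]
    have e2 : (x : Module.End (ZMod p) U) ^ p = (x : Module.End (ZMod p) U) ^ (k + 2) := by congr 1
    rw [e2, e, hx', mul_zero]
  have hup : u ^ p = 1 := by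
    apply Units.ext
    rw [Units.val_pow_eq_pow_val]
    show (1 + (x : Module.End (ZMod p) U)) ^ p = 1
    rw [add_pow_char_of_commute p (Commute.one_left _), one_pow, hp2, add_zero]
  have h1 := not_dvd (p := p) (U := U) hLn hS hLS hirr
  have h2 : orderOf (⟨u, hu⟩ : HU p U L) ∣ p := orderOf_dvd_of_pow_eq_one (Subtype.ext hup)
  have h3 := orderOf_dvd_natCard (⟨u, hu⟩ : HU p U L)
  rcases (Nat.dvd_prime hp.out).1 h2 with h4 | h4
  · have h5 : (⟨u, hu⟩ : HU p U L) = 1 := orderOf_eq_one_iff.1 h4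
    have h6 : (1 : Module.End (ZMod p) U) + x = 1 := congrArg (fun t : HU p U L => ((t : (Module.End (ZMod p) U)ˣ) : Module.End (ZMod p) U)) h5
    apply Subtype.ext
    exact left_eq_add.1 h6.symm
  · rw [h4] at h3
    exact absurd h3 h1

/-- the ring is commutative -/
theorem comm [Nontrivial U] {L S : Subgroup G} (hLn : L.Normal) (hS : IsPGroup p S) (hLS : L ⊔ S = ⊤)
    (hirr : ∀ N : AddSubgroup U, (∀ (g : G), ∀ u ∈ N, g • u ∈ N) → N = ⊥ ∨ N = ⊤)
    {x y : Module.End (ZMod p) U} (hx : x ∈ HH p U L) (hy : y ∈ HH p U L) : x * y = y * x := by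
  have hfin : Finite (Module.End (ZMod p) U) := Finite.of_injective (fun f : Module.End (ZMod p) U => (f : U → U))
    DFunLike.coe_injective
  have := Reduced.comm (reduced (p := p) (U := U) hLn hS hLS hirr) ⟨x, hx⟩ ⟨y, hy⟩
  exact congrArg Subtype.val this

end Rho

/-- the form as a bilinear map over `ZMod p` -/
theorem exists_lin [Module (ZMod p) U] [Module (ZMod p) V] (f : U →+ U →+ V) :
    ∃ fL : U →ₗ[ZMod p] U →ₗ[ZMod p] V, ∀ x y, fL x y = f x y :=
  ⟨LinearMap.mk₂ (ZMod p) (fun x y => f x y)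
    (fun x x' y => by rw [map_add, AddMonoidHom.add_apply])
    (fun c x y => ZMod.map_smul (f.flip y) c x)
    (fun x y y' => map_add _ _ _) (fun c x y => ZMod.map_smul (f x) c y), fun x y => rfl⟩

/-- **T6** : `a` centralizes `f(U, U)` -/
theorem main' [Module (ZMod p) U] [Module (ZMod p) V] {f : U →+ U →+ V}
    (hf : ∀ (g : G) (x y : U), f (g • x) (g • y) = g • f x y) {L S : Subgroup G} (hLn : L.Normal)
    (hLV : ∀ l ∈ L, ∀ v : V, l • v = v) (hS : IsPGroup p S) (hLS : L ⊔ S = ⊤)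
    (hirr : ∀ N : AddSubgroup U, (∀ (g : G), ∀ u ∈ N, g • u ∈ N) → N = ⊥ ∨ N = ⊤) {a : G}
    (haU : ∀ u : U, (dl a)^[p - 1] u = 0) (haV : ∀ v : V, dl a (dl a v) = 0) (x y : U) :
    a • f x y = f x y := by
  classical
  by_cases hUn : Nontrivial U
  swap
  · rw [not_nontrivial_iff_subsingleton] at hUn
    rw [Subsingleton.elim x 0, map_zero, AddMonoidHom.zero_apply, smul_zero]
  obtain ⟨fL, hfL⟩ := exists_lin (p := p) f
  let Φ : AddSubgroup (U →ₗ[ZMod p] Module.Dual (ZMod p) U) :=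
    { carrier := {B | ∃ ψ : Module.Dual (ZMod p) V, ∀ x y, B x y = ψ (f x y)}
      zero_mem' := ⟨0, fun x y => rfl⟩
      add_mem' := by
        rintro B C ⟨ψ, h1⟩ ⟨χ, h2⟩
        refine ⟨ψ + χ, fun x y => ?_⟩
        rw [LinearMap.add_apply, LinearMap.add_apply, LinearMap.add_apply, h1, h2]
      neg_mem' := by
        rintro B ⟨ψ, h1⟩
        refine ⟨-ψ, fun x y => ?_⟩
        rw [LinearMap.neg_apply, LinearMap.neg_apply, LinearMap.neg_apply, h1] }
  have hΦ : ∀ B, B ∈ Φ ↔ ∃ ψ : Module.Dual (ZMod p) V, ∀ x y, B x y = ψ (f x y) := fun B => Iff.rfl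
  have hsep : ∀ v : V, (∀ ψ : Module.Dual (ZMod p) V, ψ v = 0) → v = 0 := fun v hv =>
    (Module.forall_dual_apply_eq_zero_iff (ZMod p) v).1 hv
  have hmk : ∀ ψ : Module.Dual (ZMod p) V, fL.compr₂ ψ ∈ Φ := fun ψ => ⟨ψ, fun x y => by
    rw [LinearMap.compr₂_apply, hfL]⟩
  by_cases hΦ0 : Φ = ⊥
  · have h0 : f x y = 0 := by
      apply hsep
      intro ψ
      have h1 := hmk ψ
      rw [hΦ0, AddSubgroup.mem_bot] at h1
      have h2 := LinearMap.congr_fun (LinearMap.congr_fun h1 x) y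
      rw [LinearMap.compr₂_apply, hfL] at h2
      exact h2
    rw [h0, smul_zero]
  -- the action on `Φ`
  have htw : ∀ (g : G), ∀ B ∈ Φ, B.compl₁₂ (rho p G U g⁻¹) (rho p G U g⁻¹) ∈ Φ := by
    rintro g B ⟨ψ, h1⟩
    refine ⟨ψ ∘ₗ rho p G V g⁻¹, fun x y => ?_⟩
    rw [LinearMap.compl₁₂_apply, h1, LinearMap.comp_apply, rho_apply, rho_apply, rho_apply, hf]
  let _ : MulAction ↥S ↥Φ :=
    { smul := fun s B => ⟨B.1.compl₁₂ (rho p G U (s : G)⁻¹) (rho p G U (s : G)⁻¹), htw s B.1 B.2⟩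
      one_smul := by
        intro B
        apply Subtype.ext
        ext x y
        show B.1 (rho p G U ((1 : ↥S) : G)⁻¹ x) (rho p G U ((1 : ↥S) : G)⁻¹ y) = B.1 x y
        rw [rho_apply, rho_apply, Subgroup.coe_one, inv_one, one_smul, one_smul]
      mul_smul := by
        intro s t B
        apply Subtype.ext
        ext x y
        show B.1 (rho p G U ((s * t : ↥S) : G)⁻¹ x) (rho p G U ((s * t : ↥S) : G)⁻¹ y) =
          B.1 (rho p G U (t : G)⁻¹ (rho p G U (s : G)⁻¹ x)) (rho p G U (t : G)⁻¹ (rho p G U (s : G)⁻¹ y))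
        simp only [rho_apply, Subgroup.coe_mul, mul_inv_rev, mul_smul] }
  have hfinEnd : Finite (U →ₗ[ZMod p] Module.Dual (ZMod p) U) := by
    have : Finite (Module.Dual (ZMod p) U) := Finite.of_injective (fun f : Module.Dual (ZMod p) U => (f : U → ZMod p))
      DFunLike.coe_injective
    exact Finite.of_injective (fun f : U →ₗ[ZMod p] Module.Dual (ZMod p) U => (f : U → Module.Dual (ZMod p) U))
      DFunLike.coe_injective
  have hpΦ : p ∣ Nat.card ↥Φ := by
    obtain ⟨B, hB⟩ : ∃ B : ↥Φ, B ≠ 0 := by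
      by_contra hcon
      push Not at hcon
      apply hΦ0
      rw [eq_bot_iff]
      intro B hB
      exact congrArg Subtype.val (hcon ⟨B, hB⟩)
    have h1 : addOrderOf B = p := by
      apply addOrderOf_eq_prime _ hB
      apply Subtype.ext
      ext x y
      show (p • B.1) x y = 0
      rw [LinearMap.smul_apply, LinearMap.smul_apply, nsmul_eq_mul, CharP.cast_eq_zero, zero_mul]
    have h2 := addOrderOf_dvd_natCard B
    rwa [h1] at h2
  obtain ⟨B₀, hB₀, hB₀0⟩ := hS.exists_fixed_point_of_prime_dvd_card_of_fixed_point ↥Φ hpΦ (a := 0) (by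
    intro s
    apply Subtype.ext
    ext x y
    rfl)
  -- `B₀` is `G`-invariant
  have hinv : ∀ (g : G) (x y : U), B₀.1 (g • x) (g • y) = B₀.1 x y := by
    let K : Subgroup G :=
      { carrier := {g | ∀ x y : U, B₀.1 (g • x) (g • y) = B₀.1 x y}
        one_mem' := by intro x y; rw [one_smul, one_smul]
        mul_mem' := by
          intro g h hg hh x y
          rw [mul_smul, mul_smul, hg, hh]
        inv_mem' := by
          intro g hg x y
          have := hg (g⁻¹ • x) (g⁻¹ • y)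
          rw [smul_inv_smul, smul_inv_smul] at this
          exact this.symm }
    have hLK : L ≤ K := by
      intro l hl x y
      obtain ⟨ψ, hψ⟩ := B₀.2
      rw [hψ, hψ, hf, hLV l hl]
    have hSK : S ≤ K := by
      intro s hs x y
      have h1 := congrArg Subtype.val (hB₀ ⟨s, hs⟩)
      have h2 := LinearMap.congr_fun (LinearMap.congr_fun h1 (s • x)) (s • y)
      have h3 : B₀.1 (s⁻¹ • s • x) (s⁻¹ • s • y) = B₀.1 (s • x) (s • y) := h2
      rw [inv_smul_smul, inv_smul_smul] at h3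
      exact h3.symm
    intro g
    have h6 : (⊤ : Subgroup G) ≤ K := by rw [← hLS]; exact sup_le hLK hSK
    exact h6 (Subgroup.mem_top g)
  -- `B₀` is nondegenerate
  have hinj : Function.Injective B₀.1 := by
    rw [injective_iff_map_eq_zero]
    let N : AddSubgroup U :=
      { carrier := {u | B₀.1 u = 0}
        zero_mem' := map_zero _
        add_mem' := by
          intro u v hu hv
          show B₀.1 (u + v) = 0
          rw [map_add, show B₀.1 u = 0 from hu, show B₀.1 v = 0 from hv, add_zero]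
        neg_mem' := by
          intro u hu
          show B₀.1 (-u) = 0
          rw [map_neg, show B₀.1 u = 0 from hu, neg_zero] }
    rcases hirr N (by
      intro g u hu
      show B₀.1 (g • u) = 0
      ext y
      have h1 := hinv g u (g⁻¹ • y)
      rw [smul_inv_smul, show B₀.1 u = 0 from hu] at h1
      exact h1) with h1 | h1
    · intro u hu
      have : u ∈ N := hu
      rw [h1, AddSubgroup.mem_bot] at this
      exact this
    · exfalso
      apply hB₀0
      apply Subtype.ext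
      ext u y
      have h3 : u ∈ N := by rw [h1]; trivial
      have h4 : B₀.1 u = 0 := h3
      rw [h4]; rfl
  let e : U ≃ₗ[ZMod p] Module.Dual (ZMod p) U :=
    LinearEquiv.ofInjectiveOfFinrankEq B₀.1 hinj (Subspace.dual_finrank_eq).symm
  have he : ∀ u, e u = B₀.1 u := fun u => rfl
  have hself : ∀ (T : Module.End (ZMod p) U) (g : G) (x y : U),
      B₀.1 ((rho p G U g * T * rho p G U g⁻¹) x) y = B₀.1 (T (g⁻¹ • x)) (g⁻¹ • y) := by
    intro T g x y
    rw [← hinv g (T (g⁻¹ • x)) (g⁻¹ • y), smul_inv_smul]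
    rfl
  have hrr : ∀ g : G, rho p G U g * rho p G U g⁻¹ = 1 := fun g => by rw [← map_mul, mul_inv_cancel, map_one]
  have hrr' : ∀ g : G, rho p G U g⁻¹ * rho p G U g = 1 := fun g => by rw [← map_mul, inv_mul_cancel, map_one]
  have key : ∀ (ψ : Module.Dual (ZMod p) V) (x y : U), ψ (a⁻¹ • f x y - f x y) = 0 := by
    intro ψ
    set B : U →ₗ[ZMod p] Module.Dual (ZMod p) U := fL.compr₂ ψ with hB
    have hB1 : ∀ x y, B x y = ψ (f x y) := fun x y => by rw [hB, LinearMap.compr₂_apply, hfL]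
    set h : Module.End (ZMod p) U := e.symm.toLinearMap ∘ₗ B with hh
    have hh1 : ∀ x, B₀.1 (h x) = B x := fun x => by
      rw [← he]
      exact e.apply_symm_apply (B x)
    have hL1 : ∀ l ∈ L, rho p G U l * h * rho p G U l⁻¹ = h := by
      intro l hl
      apply LinearMap.ext
      intro x
      apply hinj
      ext y
      rw [hself, hh1, hh1, hB1, hB1, hf, hLV _ (inv_mem hl)]
    have hhL : h ∈ HH p U L := by
      intro l hl
      conv_rhs => rw [← hL1 l hl, mul_assoc, hrr', mul_one]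
    set h' := rho p G U a * h * rho p G U a⁻¹ with hh'
    have hh'L : h' ∈ HH p U L := by
      intro l hl
      have hl' : a⁻¹ * l * a ∈ L := by simpa using hLn.conj_mem l hl a⁻¹
      have e1 := hhL _ hl'
      have e2 : rho p G U l * rho p G U a = rho p G U a * rho p G U (a⁻¹ * l * a) := by
        rw [← map_mul, ← map_mul]; congr 1; group
      have e3 : rho p G U (a⁻¹ * l * a) * rho p G U a⁻¹ = rho p G U a⁻¹ * rho p G U l := by
        rw [← map_mul, ← map_mul]; congr 1; group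
      rw [hh', ← mul_assoc, ← mul_assoc, e2, mul_assoc (rho p G U a), e1, mul_assoc, mul_assoc, e3]
      simp only [mul_assoc]
    set δ := h' - h with hδ
    have hδL : δ ∈ HH p U L := sub_mem hh'L hhL
    have hform : ∀ x y, B₀.1 (δ x) y = ψ (a⁻¹ • f x y - f x y) := by
      intro x y
      have e1 : B₀.1 (h' x) y = ψ (a⁻¹ • f x y) := by
        rw [hh', hself, hh1, hB1, hf]
      have e2 : B₀.1 (h x) y = ψ (f x y) := by rw [hh1, hB1]
      rw [hδ, LinearMap.sub_apply, map_sub, LinearMap.sub_apply, e1, e2, map_sub]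
    have hδa : rho p G U a * δ * rho p G U a⁻¹ = δ := by
      apply LinearMap.ext
      intro x
      apply hinj
      ext y
      rw [hself, hform, hform, hf]
      have h1 := haV (a⁻¹ • a⁻¹ • f x y)
      unfold dl at h1
      rw [smul_sub, smul_inv_smul, smul_inv_smul] at h1
      have h2 : a⁻¹ • a⁻¹ • f x y - a⁻¹ • f x y = (a⁻¹ • f x y - f x y) + (f x y - a⁻¹ • f x y - (a⁻¹ • f x y - a⁻¹ • a⁻¹ • f x y)) := by abel
      rw [h2, h1, add_zero]
    have hAδ : δ * rho p G U a = rho p G U a * δ := by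
      conv_lhs => rw [← hδa, mul_assoc, hrr', mul_one]
    have hc : δ * h = h * δ := comm hLn hS hLS hirr hδL hhL
    have hAh : rho p G U a * h = (h + δ) * rho p G U a := by
      rw [hδ, add_sub_cancel, hh', mul_assoc, hrr', mul_one]
    have hnil : (rho p G U a - 1) ^ (p - 1) = 0 := by
      have h1 : ∀ (k : ℕ) (u : U), ((rho p G U a - 1) ^ k) u = (dl a)^[k] u := by
        intro k
        induction k with
        | zero => intro u; rw [pow_zero]; rfl
        | succ k ih =>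
          intro u
          rw [pow_succ, Function.iterate_succ_apply, Module.End.mul_apply, ih]
          rfl
      apply LinearMap.ext
      intro u
      rw [h1, haU]; rfl
    have hchar : CharP (Module.End (ZMod p) U) p := charP_end
    have hδ0 : δ ^ (p - 1) = 0 := by
      refine delta_pow (p := p) ?_ (A := rho p G U a) (by abel) (hrr a) hAh hAδ hc hnil
      intro k hk0 hkp x hx
      have h1 : ((k : ZMod p)) • x = 0 := by
        rw [Nat.cast_smul_eq_nsmul, nsmul_eq_mul]; exact hx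
      rcases smul_eq_zero.1 h1 with h2 | h2
      · exfalso
        rw [ZMod.natCast_eq_zero_iff] at h2
        exact absurd (Nat.le_of_dvd hk0 h2) (not_le.2 hkp)
      · exact h2
    have hred : IsReduced (HH p U L) := (isReduced_iff_pow_one_lt 2 one_lt_two).2 fun x hx =>
      reduced hLn hS hLS hirr x (by rw [← sq]; exact hx)
    have h3 : (⟨δ, hδL⟩ : HH p U L) = 0 := hred.eq_zero _ ⟨p - 1, Subtype.ext hδ0⟩
    have h4 : δ = 0 := congrArg Subtype.val h3
    intro x y
    rw [← hform, h4, LinearMap.zero_apply, map_zero]; rfl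
  have h1 : a⁻¹ • f (a • x) (a • y) - f (a • x) (a • y) = 0 := hsep _ fun ψ => key ψ _ _
  rw [hf, inv_smul_smul] at h1
  exact (sub_eq_zero.1 h1).symm

/-- **T6** : `a` centralizes `f(U, U)` -/
theorem main (hU : ∀ u : U, p • u = 0) (hV : ∀ v : V, p • v = 0) {f : U →+ U →+ V}
    (hf : ∀ (g : G) (x y : U), f (g • x) (g • y) = g • f x y) {L S : Subgroup G} (hLn : L.Normal)
    (hLV : ∀ l ∈ L, ∀ v : V, l • v = v) (hS : IsPGroup p S) (hLS : L ⊔ S = ⊤)
    (hirr : ∀ N : AddSubgroup U, (∀ (g : G), ∀ u ∈ N, g • u ∈ N) → N = ⊥ ∨ N = ⊤) {a : G}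
    (haU : ∀ u : U, (dl a)^[p - 1] u = 0) (haV : ∀ v : V, dl a (dl a v) = 0) (x y : U) :
    a • f x y = f x y := by
  let _ : Module (ZMod p) U := AddCommGroup.zmodModule hU
  let _ : Module (ZMod p) V := AddCommGroup.zmodModule hV
  exact main' hf hLn hLV hS hLS hirr haU haV x y

end Cfsg.Agent.H215.J7.EndL
end

-- part: H215/J7/Bounds
section
/-!
# The bounds on `D / R` (S3068)
-/

set_option autoImplicit false

namespace Cfsg.Agent.H215.J7

open Subgroup Cfsg Cfsg.Agent.H215.J7.Form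
open scoped commutatorElement

universe u

attribute [local instance] DMod.iW DMod.iV DMod.aW DMod.aV DMod.fW DMod.fV

variable {G : Type u} [Group G] {p : ℕ} {Q R D : Subgroup G}

namespace DMod

theorem w_one (m : DMod p Q R D) : m.w 1 = 0 := (m.w_zero 1 (one_mem D)).2 (one_mem R)

theorem w_inv (m : DMod p Q R D) {x : G} (hx : x ∈ D) : m.w x⁻¹ = -m.w x := by
  have h1 := m.w_add x hx x⁻¹ (inv_mem hx)
  rw [mul_inv_cancel, m.w_one] at h1
  exact (neg_eq_of_add_eq_zero_right h1.symm).symm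

theorem w_comm (m : DMod p Q R D) (hD : D.Normal) (g : G) {x : G} (hx : x ∈ D) : m.w ⁅g, x⁆ = dl g (m.w x) := by
  rw [commutatorElement_def, m.w_add _ (hD.conj_mem x hx g) _ (inv_mem hx), m.w_smul g x hx, m.w_inv hx,
    ← sub_eq_add_neg]
  rfl

theorem comm_mem (hD : D.Normal) (g : G) {x : G} (hx : x ∈ D) : ⁅g, x⁆ ∈ D := by
  rw [commutatorElement_def]
  exact mul_mem (hD.conj_mem x hx g) (inv_mem hx)

theorem w_pow (m : DMod p Q R D) {x : G} (hx : x ∈ D) (n : ℕ) : m.w (x ^ n) = n • m.w x := by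
  induction n with
  | zero => rw [pow_zero, m.w_one, zero_smul]
  | succ n ih => rw [pow_succ, m.w_add _ (pow_mem hx n) _ hx, ih, succ_nsmul]

theorem v_one (m : DMod p Q R D) : m.v 1 = 0 := (m.v_zero 1 (one_mem _)).2 rfl

theorem v_inv (m : DMod p Q R D) {x : G} (hx : x ∈ VV p Q) : m.v x⁻¹ = -m.v x := by
  have h1 := m.v_add x hx x⁻¹ (inv_mem hx)
  rw [mul_inv_cancel, m.v_one] at h1
  exact (neg_eq_of_add_eq_zero_right h1.symm).symm

theorem v_comm (m : DMod p Q R D) (hQ : Q.Normal) (g : G) {x : G} (hx : x ∈ VV p Q) : m.v ⁅g, x⁆ = dl g (m.v x) := by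
  have hV := H352.J7.vv_normal p Q
  rw [commutatorElement_def, m.v_add _ (hV.conj_mem x hx g) _ (inv_mem hx), m.v_smul g x hx, m.v_inv hx,
    ← sub_eq_add_neg]
  rfl

theorem v_pow (m : DMod p Q R D) {x : G} (hx : x ∈ VV p Q) (n : ℕ) : m.v (x ^ n) = n • m.v x := by
  induction n with
  | zero => rw [pow_zero, m.v_one, zero_smul]
  | succ n ih => rw [pow_succ, m.v_add _ (pow_mem hx n) _ hx, ih, succ_nsmul]

theorem nsmul_W (m : DMod p Q R D) (h : Pre p Q R D) (u : m.W) : p • u = 0 := by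
  obtain ⟨x, hx, rfl⟩ := m.w_surj u
  rw [← m.w_pow hx, m.w_zero _ (pow_mem hx p)]
  exact h.pow x hx

theorem nsmul_V (m : DMod p Q R D) (u : m.V) : p • u = 0 := by
  obtain ⟨x, hx, rfl⟩ := m.v_surj u
  rw [← m.v_pow hx, hx.2, m.v_one]

theorem f_smul (m : DMod p Q R D) (h : Pre p Q R D) (g : G) (x y : m.W) : m.f (g • x) (g • y) = g • m.f x y := by
  obtain ⟨x, hx, rfl⟩ := m.w_surj x
  obtain ⟨y, hy, rfl⟩ := m.w_surj y
  rw [← m.w_smul g x hx, ← m.w_smul g y hy, m.f_eq _ (h.Dn.conj_mem x hx g) _ (h.Dn.conj_mem y hy g), m.f_eq x hx y hy,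
    ← m.v_smul g _ (m.f_mem x hx y hy)]
  congr 1
  simp only [commutatorElement_def]; group

theorem f_self (m : DMod p Q R D) (x : m.W) : m.f x x = 0 := by
  obtain ⟨x, hx, rfl⟩ := m.w_surj x
  rw [m.f_eq x hx x hx, commutatorElement_self, m.v_one]

theorem two_V [hp : Fact p.Prime] (hp2 : p ≠ 2) (m : DMod p Q R D) (z : m.V) (hz : z + z = 0) : z = 0 := by
  have h1 := m.nsmul_V z
  have h2 : 2 • z = 0 := by rw [two_nsmul]; exact hz
  have h3 : addOrderOf z ∣ 1 := by
    have hg : Nat.gcd p 2 = 1 := (Nat.coprime_primes hp.out Nat.prime_two).2 hp2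
    rw [← hg]
    exact Nat.dvd_gcd (addOrderOf_dvd_of_nsmul_eq_zero h1) (addOrderOf_dvd_of_nsmul_eq_zero h2)
  exact AddMonoid.addOrderOf_eq_one_iff.1 (Nat.dvd_one.1 h3)

theorem two_W [hp : Fact p.Prime] (hp2 : p ≠ 2) (m : DMod p Q R D) (h : Pre p Q R D) (z : m.W) (hz : z + z = 0) :
    z = 0 := by
  have h1 := m.nsmul_W h z
  have h2 : 2 • z = 0 := by rw [two_nsmul]; exact hz
  have h3 : addOrderOf z ∣ 1 := by
    have hg : Nat.gcd p 2 = 1 := (Nat.coprime_primes hp.out Nat.prime_two).2 hp2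
    rw [← hg]
    exact Nat.dvd_gcd (addOrderOf_dvd_of_nsmul_eq_zero h1) (addOrderOf_dvd_of_nsmul_eq_zero h2)
  exact AddMonoid.addOrderOf_eq_one_iff.1 (Nat.dvd_one.1 h3)

/-- the facts about `A` -/
structure Fac (p : ℕ) (Q R D S A : Subgroup G) : Prop where
  S_p : IsPGroup p S
  DS : D ≤ S
  AS : A ≤ S
  Ac : Ab A
  quad : ∀ z ∈ ZZ Q, ∀ a ∈ A, ∀ b ∈ A, ⁅a, ⁅b, z⁆⁆ = 1
  form : ∀ y ∈ D, (∀ a ∈ A, ∀ b ∈ A, ⁅a, y⁆ * ⁅b, y⁆ = ⁅b, y⁆ * ⁅a, y⁆) →
    ∀ a ∈ A, ∀ b ∈ A, ∀ c ∈ A, ⁅c, ⁅b, ⁅a, y⁆⁆⁆ ∈ R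

theorem hc (m : DMod p Q R D) {S A : Subgroup G} (k : Fac p Q R D S A) (a b : ↥A) (w : m.W) :
    a • b • w = b • a • w := by
  have h1 : a * b = b * a := Subtype.ext (k.Ac a a.2 b b.2)
  rw [← mul_smul, h1, mul_smul]

theorem hstar (m : DMod p Q R D) (h : Pre p Q R D) {S A : Subgroup G} (k : Fac p Q R D S A) (w : m.W)
    (hw : ∀ a b : ↥A, m.f (dl a w) (dl b w) = 0) (a b c : ↥A) : dl c (dl b (dl a w)) = 0 := by
  obtain ⟨y, hy, rfl⟩ := m.w_surj w
  have hcm : ∀ (g : G) {x : G}, x ∈ D → ⁅g, x⁆ ∈ D := fun g x hx => comm_mem h.Dn g hx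
  have e : ∀ (a : ↥A) {x : G}, x ∈ D → dl a (m.w x) = m.w ⁅(a : G), x⁆ := fun a x hx => (m.w_comm h.Dn (a : G) hx).symm
  have h1 : ∀ a ∈ A, ∀ b ∈ A, ⁅a, y⁆ * ⁅b, y⁆ = ⁅b, y⁆ * ⁅a, y⁆ := by
    intro a ha b hb
    have h2 := hw ⟨a, ha⟩ ⟨b, hb⟩
    rw [e _ hy, e _ hy, m.f_eq _ (hcm _ hy) _ (hcm _ hy), m.v_zero _ (m.f_mem _ (hcm _ hy) _ (hcm _ hy)),
      commutatorElement_eq_one_iff_mul_comm] at h2
    exact h2
  rw [e _ hy, e _ (hcm _ hy), e _ (hcm _ (hcm _ hy)), m.w_zero _ (hcm _ (hcm _ (hcm _ hy)))]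
  exact k.form y hy h1 a a.2 b b.2 c c.2

theorem hZ (m : DMod p Q R D) (h : Pre p Q R D) {S A : Subgroup G} (k : Fac p Q R D S A) (a b : ↥A) (z : m.V) :
    dl b (dl a z) = 0 := by
  have hV := h.Qn
  have hV := H352.J7.vv_normal p Q
  obtain ⟨y, hy, rfl⟩ := m.v_surj z
  have hcm : ∀ (g : G) {x : G}, x ∈ VV p Q → ⁅g, x⁆ ∈ VV p Q := fun g x hx => comm_mem hV g hx
  have e : ∀ (a : ↥A) {x : G}, x ∈ VV p Q → dl a (m.v x) = m.v ⁅(a : G), x⁆ := fun a x hx =>
    (m.v_comm h.Qn (a : G) hx).symm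
  rw [e _ hy, e _ (hcm _ hy), k.quad y hy.1 b b.2 a a.2, m.v_one]

theorem hnil (m : DMod p Q R D) (h : Pre p Q R D) [Finite G] [Fact p.Prime] {S A : Subgroup G}
    (k : Fac p Q R D S A) : ∃ N, Ip ↥A (⊤ : AddSubgroup m.W) N = ⊥ := by
  have hn : Group.IsNilpotent ↥S := k.S_p.isNilpotent
  obtain ⟨N, hN⟩ := Subgroup.nilpotent_iff_lowerCentralSeries.1 hn
  refine ⟨N, ?_⟩
  have key : ∀ n, ∀ u ∈ Ip ↥A (⊤ : AddSubgroup m.W) n,
      ∃ x : ↥S, x ∈ Subgroup.lowerCentralSeries (⊤ : Subgroup ↥S) n ∧ (x : G) ∈ D ∧ m.w x = u := by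
    intro n
    induction n with
    | zero =>
      intro u _
      obtain ⟨x, hx, rfl⟩ := m.w_surj u
      exact ⟨⟨x, k.DS hx⟩, Subgroup.mem_top _, hx, rfl⟩
    | succ n ih =>
      let K : AddSubgroup m.W :=
        { carrier := {u | ∃ x : ↥S, x ∈ Subgroup.lowerCentralSeries (⊤ : Subgroup ↥S) (n + 1) ∧ (x : G) ∈ D ∧ m.w x = u}
          zero_mem' := ⟨1, one_mem _, one_mem _, m.w_one⟩
          add_mem' := by
            rintro _ _ ⟨x, hx, hxD, rfl⟩ ⟨y, hy, hyD, rfl⟩
            exact ⟨x * y, mul_mem hx hy, mul_mem hxD hyD, m.w_add _ hxD _ hyD⟩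
          neg_mem' := by
            rintro _ ⟨x, hx, hxD, rfl⟩
            exact ⟨x⁻¹, inv_mem hx, inv_mem hxD, m.w_inv hxD⟩ }
      have h1 : Ip ↥A (⊤ : AddSubgroup m.W) (n + 1) ≤ K := by
        refine Ip_le fun a y hy => ?_
        obtain ⟨x, hx, hxD, rfl⟩ := ih y hy
        refine ⟨⁅(⟨a, k.AS a.2⟩ : ↥S), x⁆, ?_, comm_mem h.Dn (a : G) hxD, m.w_comm h.Dn (a : G) hxD⟩
        have h2 : ⁅x, (⟨a, k.AS a.2⟩ : ↥S)⁆ ∈ Subgroup.lowerCentralSeries (⊤ : Subgroup ↥S) (n + 1) :=
          commutator_mem_commutator hx (Subgroup.mem_top _)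
        rw [← commutatorElement_inv]
        exact inv_mem h2
      exact fun u hu => h1 hu
  rw [eq_bot_iff]
  intro u hu
  obtain ⟨x, hx, hxD, rfl⟩ := key N u hu
  rw [hN, Subgroup.mem_bot] at hx
  rw [hx]
  exact m.w_one

theorem six [Finite G] [Fact p.Prime] (m : DMod p Q R D) (h : Pre p Q R D) {S A : Subgroup G}
    (k : Fac p Q R D S A) : Ip ↥A (⊤ : AddSubgroup m.W) 6 = ⊥ :=
  Form.six (A := ↥A) (f := m.f) (fun a x y => m.f_smul h (a : G) x y) (m.hc k) (m.hstar h k)
    (fun a b z => m.hZ h k a b z) (m.hnil h k)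

theorem four [Finite G] [Fact p.Prime] (hp2 : p ≠ 2) (m : DMod p Q R D) (h : Pre p Q R D) {S A : Subgroup G}
    (k : Fac p Q R D S A) {Y : AddSubgroup m.W} (hY : ∀ a : ↥A, ∀ y ∈ Y, a • y ∈ Y)
    (hfix : ∀ x ∈ Y, ∀ y ∈ Y, ∀ a : ↥A, a • m.f x y = m.f x y) : Ip ↥A Y 4 = ⊥ :=
  Form.four (A := ↥A) (f := m.f) (fun a x y => m.f_smul h (a : G) x y) (m.f_self) (m.two_V hp2) (m.hc k) (m.hstar h k)
    (m.hnil h k) hY hfix

end DMod

end Cfsg.Agent.H215.J7
end

-- part: H587/S3068/Repl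
section
/-!
# S3068: Thompson replacement for abelian subgroups of largest order (helper587)

`y ∈ P`, `A` an abelian subgroup of `P` of largest order, `T = [y, A]` abelian. Then `T C_A(T)` is again an abelian
subgroup of largest order, and every element of `T` is `[y, a] c` with `a ∈ A`, `c ∈ T ∩ A`.
-/

set_option autoImplicit false
set_option linter.unusedSectionVars false

namespace Cfsg.Agent.H587.S3068

open Subgroup Cfsg Cfsg.Agent.PLocal Cfsg.Agent.PLocal.ThompsonJA
open Cfsg.Agent.PLocal.ThompsonReplacement (elemComm mem_elemComm elemComm_le_iff)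
open scoped commutatorElement Pointwise

section Cross

variable {G : Type*} [Group G] {A : Subgroup G} {y : G}

theorem cmul (y a b : G) : ⁅y, a * b⁆ = ⁅y, a⁆ * (a * ⁅y, b⁆ * a⁻¹) := by
  simp only [commutatorElement_def]; group

theorem conj_comm_eq (y a b : G) : a * ⁅y, b⁆ * a⁻¹ = ⁅y, a⁆⁻¹ * ⁅y, a * b⁆ := by
  rw [cmul]; group

theorem elemComm_conj {a : G} (ha : a ∈ A) {t : G} (ht : t ∈ elemComm y A) : a * t * a⁻¹ ∈ elemComm y A := by
  have h : elemComm y A ≤ (elemComm y A).comap (MulAut.conj a).toMonoidHom := by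
    rw [elemComm_le_iff]
    intro b hb
    show a * ⁅y, b⁆ * a⁻¹ ∈ elemComm y A
    rw [conj_comm_eq]
    exact mul_mem (inv_mem (mem_elemComm y A ha)) (mem_elemComm y A (mul_mem ha hb))
  exact h ht

theorem comm_mem {a : G} (ha : a ∈ A) {t : G} (ht : t ∈ elemComm y A) : ⁅a, t⁆ ∈ elemComm y A := by
  rw [commutatorElement_def]
  exact mul_mem (elemComm_conj ha ht) (inv_mem ht)

variable (hA : ∀ a ∈ A, ∀ b ∈ A, a * b = b * a)
  (hT : ∀ s ∈ elemComm y A, ∀ t ∈ elemComm y A, s * t = t * s)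

include hA hT in
theorem swap {a b : G} (ha : a ∈ A) (hb : b ∈ A) : ⁅a, ⁅y, b⁆⁆ = ⁅b, ⁅y, a⁆⁆ := by
  have h1 := mem_elemComm y A ha
  have h2 := mem_elemComm y A hb
  have h3 := mem_elemComm y A (mul_mem ha hb)
  have e1 : ⁅a, ⁅y, b⁆⁆ = ⁅y, a⁆⁻¹ * ⁅y, a * b⁆ * ⁅y, b⁆⁻¹ := by
    rw [commutatorElement_def a, conj_comm_eq]
  have e2 : ⁅b, ⁅y, a⁆⁆ = ⁅y, b⁆⁻¹ * ⁅y, a * b⁆ * ⁅y, a⁆⁻¹ := by
    rw [commutatorElement_def b, conj_comm_eq, hA b hb a ha]
  rw [e1, e2, hT _ (inv_mem h1) _ h3, hT _ (inv_mem h2) _ h3, mul_assoc, mul_assoc, hT _ (inv_mem h1) _ (inv_mem h2)]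

include hT in
theorem comm_mul {a : G} (ha : a ∈ A) {s t : G} (hs : s ∈ elemComm y A) (ht : t ∈ elemComm y A) :
    ⁅a, s * t⁆ = ⁅a, s⁆ * ⁅a, t⁆ := by
  have h1 := elemComm_conj ha hs
  have h2 := elemComm_conj ha ht
  calc ⁅a, s * t⁆ = (a * s * a⁻¹) * ((a * t * a⁻¹) * t⁻¹) * s⁻¹ := by rw [commutatorElement_def]; group
    _ = (a * s * a⁻¹) * (s⁻¹ * ((a * t * a⁻¹) * t⁻¹)) := by
        rw [mul_assoc, hT _ (mul_mem h2 (inv_mem ht)) _ (inv_mem hs)]
    _ = ⁅a, s⁆ * ⁅a, t⁆ := by rw [commutatorElement_def, commutatorElement_def]; group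

include hT in
theorem comm_inv {a : G} (ha : a ∈ A) {t : G} (ht : t ∈ elemComm y A) : ⁅a, t⁻¹⁆ = ⁅a, t⁆⁻¹ := by
  have h1 := comm_mul hT ha ht (inv_mem ht)
  rw [mul_inv_cancel, commutatorElement_one_right] at h1
  exact (inv_eq_of_mul_eq_one_right h1.symm).symm

include hA hT in
theorem comm_comm {a b : G} (ha : a ∈ A) (hb : b ∈ A) {t : G} (ht : t ∈ elemComm y A) :
    ⁅a, ⁅b, t⁆⁆ = ⁅b, ⁅a, t⁆⁆ := by
  have h1 := elemComm_conj ha ht
  have h2 := elemComm_conj hb ht
  have h3 := elemComm_conj (mul_mem ha hb) ht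
  have e1 : ⁅a, ⁅b, t⁆⁆ = ((a * b) * t * (a * b)⁻¹) * (a * t * a⁻¹)⁻¹ * (t * (b * t * b⁻¹)⁻¹) := by
    simp only [commutatorElement_def]; group
  have e2 : ⁅b, ⁅a, t⁆⁆ = ((a * b) * t * (a * b)⁻¹) * (b * t * b⁻¹)⁻¹ * (t * (a * t * a⁻¹)⁻¹) := by
    rw [hA a ha b hb]; simp only [commutatorElement_def]; group
  rw [e1, e2, mul_assoc _ _ (t * (b * t * b⁻¹)⁻¹), mul_assoc _ _ (t * (a * t * a⁻¹)⁻¹)]
  congr 1
  rw [hT _ ht _ (inv_mem h2), hT _ ht _ (inv_mem h1), ← mul_assoc, ← mul_assoc, hT _ (inv_mem h1) _ (inv_mem h2)]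

end Cross

section Repl

variable {G : Type*} [Group G] [Finite G] {P A : Subgroup G} {y : G}

theorem elemComm_le (hAP : A ≤ P) (hy : y ∈ P) : elemComm y A ≤ P := by
  rw [elemComm_le_iff]
  intro a ha
  rw [commutatorElement_def]
  exact mul_mem (mul_mem (mul_mem hy (hAP ha)) (inv_mem hy)) (inv_mem (hAP ha))

theorem repl (hA : A ∈ maxAbelianIn P) (hy : y ∈ P)
    (hT : ∀ s ∈ elemComm y A, ∀ t ∈ elemComm y A, s * t = t * s) :
    elemComm y A ⊔ (A ⊓ centralizer (elemComm y A : Set G)) ∈ maxAbelianIn P ∧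
    ∀ t ∈ elemComm y A, ∃ a ∈ A, ⁅y, a⁆⁻¹ * t ∈ A := by
  classical
  obtain ⟨hAP, hAc, hAm⟩ := hA
  have hAc' := (ThompsonJA.isMulCommutative_iff A).mp hAc
  set T := elemComm y A with hTd
  set C := A ⊓ centralizer (T : Set G) with hC
  have hTP : T ≤ P := elemComm_le hAP hy
  have hCT : C ≤ centralizer (T : Set G) := inf_le_right
  -- the subgroup `T C`
  have hB : IsMulCommutative (T ⊔ C : Subgroup G) := by
    rw [ThompsonJA.isMulCommutative_iff]
    have h1 : T ⊔ C ≤ centralizer (T : Set G) := by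
      refine sup_le (fun s hs => mem_centralizer_iff.2 fun t ht => hT t ht s hs) hCT
    have h2 : T ⊔ C ≤ centralizer ((T ⊔ C : Subgroup G) : Set G) := by
      rw [le_centralizer_iff]
      refine sup_le (le_centralizer_iff.1 h1) ?_
      rw [le_centralizer_iff]
      exact sup_le (le_centralizer_iff.1 hCT) fun s hs => mem_centralizer_iff.2 fun t ht => hAc' t ht.1 s hs.1
    intro s hs t ht
    exact (mem_centralizer_iff.1 (h2 hs) t ht).symm
  have hBP : T ⊔ C ≤ P := sup_le hTP (inf_le_left.trans hAP)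
  have hle := hAm _ hBP hB
  -- the injection
  let f : A ⧸ C.subgroupOf A → T ⧸ A.subgroupOf T :=
    fun q => QuotientGroup.mk ⟨⁅y, (q.out : G)⁆, mem_elemComm y A q.out.2⟩
  have hf : Function.Injective f := by
    intro q q' h
    have h1 := QuotientGroup.eq.1 h
    rw [mem_subgroupOf] at h1
    simp only [InvMemClass.coe_inv, Subgroup.coe_mul] at h1
    rw [← Quotient.out_eq' q, ← Quotient.out_eq' q']
    refine QuotientGroup.eq.2 ?_
    rw [mem_subgroupOf]
    generalize hga : q.out = a at *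
    generalize hgb : q'.out = b at *
    obtain ⟨a, ha⟩ := a
    obtain ⟨b, hb⟩ := b
    simp only [InvMemClass.coe_inv, Subgroup.coe_mul] at h1 ⊢
    have hc : a⁻¹ * b ∈ A := A.mul_mem (A.inv_mem ha) hb
    have e1 : ⁅y, a⁆⁻¹ * ⁅y, b⁆ = a * ⁅y, a⁻¹ * b⁆ * a⁻¹ := by
      rw [conj_comm_eq, mul_inv_cancel_left]
    rw [e1] at h1
    have h2 : ⁅y, a⁻¹ * b⁆ ∈ A := by
      have h3 := mul_mem (mul_mem (inv_mem ha) h1) ha
      have h4 : a⁻¹ * (a * ⁅y, a⁻¹ * b⁆ * a⁻¹) * a = ⁅y, a⁻¹ * b⁆ := by group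
      rwa [h4] at h3
    refine ⟨hc, ?_⟩
    have h5 : T ≤ centralizer ({a⁻¹ * b} : Set G) := by
      rw [hTd, elemComm_le_iff]
      intro d hd
      rw [mem_centralizer_singleton_iff]
      have h6 := swap hAc' hT hc hd
      have h7 : ⁅d, ⁅y, a⁻¹ * b⁆⁆ = 1 := commutatorElement_eq_one_iff_mul_comm.2 (hAc' d hd _ h2)
      rw [h7] at h6
      exact (commutatorElement_eq_one_iff_mul_comm.1 h6).symm
    exact mem_centralizer_iff.2 fun t ht => mem_centralizer_singleton_iff.1 (h5 ht)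
  have hf1 := Nat.card_le_card_of_injective f hf
  -- the orders
  have hTC : T ⊓ C = T ⊓ A := by
    apply le_antisymm
    · exact inf_le_inf_left _ inf_le_left
    · exact le_inf inf_le_left (le_inf inf_le_right fun s hs => mem_centralizer_iff.2 fun t ht => hT t ht s hs.1)
  have hprod : ((T : Set G) * (C : Set G) : Set G) = ((T ⊔ C : Subgroup G) : Set G) := by
    rw [Subgroup.coe_mul_of_right_le_normalizer_left T C (hCT.trans (centralizer_le_normalizer _))]
  have h1 := Cfsg.Agent.Lib.ProductSet.card_mul_card_inf T C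
  rw [hprod, hTC] at h1
  have h1' : Nat.card (T ⊔ C : Subgroup G) * Nat.card (T ⊓ A : Subgroup G) = Nat.card T * Nat.card C := h1
  have h2 : Nat.card (T ⊓ A : Subgroup G) * Nat.card (T ⧸ A.subgroupOf T) = Nat.card T :=
    ThompsonReplacement.card_inf_mul_relIndex T A
  have h3 : Nat.card C * Nat.card (A ⧸ C.subgroupOf A) = Nat.card A := by
    have := ThompsonReplacement.card_inf_mul_relIndex A C
    have e : A ⊓ C = C := inf_eq_right.2 inf_le_left
    rwa [e] at this
  have hTA : 0 < Nat.card (T ⊓ A : Subgroup G) := Nat.card_pos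
  have hC0 : 0 < Nat.card C := Nat.card_pos
  have h4 : Nat.card (T ⊔ C : Subgroup G) = Nat.card (T ⧸ A.subgroupOf T) * Nat.card C := by
    rw [← h2] at h1'
    have : Nat.card (T ⊓ A : Subgroup G) * Nat.card (T ⊔ C : Subgroup G) =
      Nat.card (T ⊓ A : Subgroup G) * (Nat.card (T ⧸ A.subgroupOf T) * Nat.card C) := by
      rw [mul_comm, h1']; ring
    exact Nat.eq_of_mul_eq_mul_left hTA this
  have h5 : Nat.card (T ⧸ A.subgroupOf T) ≤ Nat.card (A ⧸ C.subgroupOf A) := by
    rw [h4, ← h3, mul_comm] at hle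
    exact Nat.le_of_mul_le_mul_left hle hC0
  have h6 : Nat.card (T ⧸ A.subgroupOf T) = Nat.card (A ⧸ C.subgroupOf A) := le_antisymm h5 hf1
  have hbij : Function.Bijective f := (Nat.bijective_iff_injective_and_card f).2 ⟨hf, h6.symm⟩
  constructor
  · refine ⟨hBP, hB, fun B' hB' hBc' => ?_⟩
    rw [h4, h6, mul_comm, h3]
    exact hAm B' hB' hBc'
  · intro t ht
    obtain ⟨q, hq⟩ := hbij.2 (QuotientGroup.mk ⟨t, ht⟩)
    have h7 := QuotientGroup.eq.1 hq
    rw [mem_subgroupOf] at h7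
    exact ⟨q.out, q.out.2, h7⟩

end Repl

end Cfsg.Agent.H587.S3068
end

-- part: H587/S3068/Dich
section
/-!
# S3068: the dichotomy and the bound 3 (helper587)
-/

set_option autoImplicit false
set_option linter.unusedSectionVars false

namespace Cfsg.Agent.H587.S3068

open Subgroup Cfsg Cfsg.Agent.PLocal Cfsg.Agent.PLocal.ThompsonJA
open Cfsg.Agent.PLocal.ThompsonReplacement (elemComm mem_elemComm elemComm_le_iff)
open Cfsg.Agent.H215.J7
open scoped commutatorElement

variable {G : Type*} [Group G]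

/-- `A ≰ Q` is an abelian subgroup of `S` of largest order with `(|A ∩ R|, |A ∩ D|)` as large as possible -/
structure Best (S Q R D A : Subgroup G) : Prop where
  QS : Q ≤ S
  RD : R ≤ D
  DQ : D ≤ Q
  cent : ∀ d ∈ D, ∀ r ∈ R, d * r = r * d
  comm : ∀ d ∈ D, ∀ q ∈ Q, ⁅q, d⁆ ∈ R
  mem : A ∈ maxAbelianIn S
  not_le : ¬ A ≤ Q
  best : ∀ B ∈ maxAbelianIn S, ¬ B ≤ Q → A ⊓ ZZ Q ≤ B → Nat.card (B ⊓ R : Subgroup G) ≤ Nat.card (A ⊓ R : Subgroup G) ∧
    (Nat.card (B ⊓ R : Subgroup G) = Nat.card (A ⊓ R : Subgroup G) →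
      Nat.card (B ⊓ D : Subgroup G) ≤ Nat.card (A ⊓ D : Subgroup G))

namespace Best

variable {S Q R D A : Subgroup G} (h : Best S Q R D A)

include h

theorem AS : A ≤ S := h.mem.1

theorem Aab : ∀ a ∈ A, ∀ b ∈ A, a * b = b * a := (ThompsonJA.isMulCommutative_iff A).mp h.mem.2.1

/-- the dichotomy -/
theorem dich [Finite G] {y : G} (hy : y ∈ Q) (hTD : elemComm y A ≤ D)
    (hT : ∀ s ∈ elemComm y A, ∀ t ∈ elemComm y A, s * t = t * s) :
    elemComm y A ≤ A ∨ A ⊓ centralizer (elemComm y A : Set G) ≤ Q := by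
  by_contra hcon
  rw [not_or] at hcon
  obtain ⟨h1, h2⟩ := hcon
  set T := elemComm y A with hTd
  set C := A ⊓ centralizer (T : Set G) with hC
  obtain ⟨hB, -⟩ := repl h.mem (h.QS hy) hT
  have hBQ : ¬ T ⊔ C ≤ Q := fun hh => h2 (le_sup_right.trans hh)
  have hZ : A ⊓ ZZ Q ≤ C := fun a ha =>
    ⟨ha.1, mem_centralizer_iff.2 fun t ht => mem_centralizer_iff.1 ha.2.2 t (h.DQ (hTD ht))⟩
  obtain ⟨h3, h4⟩ := h.best _ hB hBQ (hZ.trans le_sup_right)
  have h5 : A ⊓ R ≤ C := fun a ha => ⟨ha.1, mem_centralizer_iff.2 fun t ht => h.cent t (hTD ht) a ha.2⟩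
  have h6 : A ⊓ R = (T ⊔ C) ⊓ R :=
    eq_of_le_of_card_ge (le_inf (h5.trans le_sup_right) inf_le_right) h3
  have h7 : T ⊓ R ≤ A := by
    have : T ⊓ R ≤ (T ⊔ C) ⊓ R := inf_le_inf_right _ le_sup_left
    rw [← h6] at this
    exact this.trans inf_le_left
  have h8 : A ⊓ D ≤ C := by
    intro a ha
    refine ⟨ha.1, ?_⟩
    have h9 : ⁅y, a⁆ ∈ A := h7 ⟨mem_elemComm y A ha.1, h.comm a ha.2 y hy⟩
    have h10 : T ≤ centralizer ({a} : Set G) := by
      rw [hTd, elemComm_le_iff]
      intro d hd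
      rw [mem_centralizer_singleton_iff]
      have h11 := swap h.Aab hT ha.1 hd
      have h12 : ⁅d, ⁅y, a⁆⁆ = 1 := commutatorElement_eq_one_iff_mul_comm.2 (h.Aab d hd _ h9)
      rw [h12] at h11
      exact (commutatorElement_eq_one_iff_mul_comm.1 h11).symm
    exact mem_centralizer_iff.2 fun t ht => mem_centralizer_singleton_iff.1 (h10 ht)
  have h9 : A ⊓ D = (T ⊔ C) ⊓ D :=
    eq_of_le_of_card_ge (le_inf (h8.trans le_sup_right) inf_le_right) (h4 (by rw [← h6]))
  apply h1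
  have h10 : T ≤ (T ⊔ C) ⊓ D := le_inf le_sup_left hTD
  rw [← h9] at h10
  exact h10.trans inf_le_left

end Best

/-- the last element of a chain of commutators -/
theorem exists_last {P T A : Subgroup G} (hP : Group.IsNilpotent P) (hTP : T ≤ P) (hAP : A ≤ P)
    (hT : ∀ c ∈ A, ∀ t ∈ T, ⁅c, t⁆ ∈ T) (Φ : G → Prop) (h1 : Φ 1) (hex : ∃ t ∈ T, ¬ Φ t) :
    ∃ t ∈ T, ¬ Φ t ∧ ∀ c ∈ A, Φ ⁅c, t⁆ := by
  by_contra hcon
  push Not at hcon
  obtain ⟨n, hn⟩ := (Subgroup.isNilpotent_iff_lowerCentralSeries P).1 hP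
  have key : ∀ m : ℕ, ∃ t ∈ T, t ∈ P.lowerCentralSeries m ∧ ¬ Φ t := by
    intro m
    induction m with
    | zero =>
      obtain ⟨t, ht, hΦ⟩ := hex
      exact ⟨t, ht, hTP ht, hΦ⟩
    | succ m ih =>
      obtain ⟨t, ht, htm, hΦ⟩ := ih
      obtain ⟨c, hc, hc'⟩ := hcon t ht hΦ
      refine ⟨⁅c, t⁆, hT c hc t ht, ?_, hc'⟩
      have : ⁅c, t⁆ ∈ ⁅P.lowerCentralSeries m, P⁆ := by
        rw [commutator_comm]
        exact commutator_mem_commutator (hAP hc) htm
      exact this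
  obtain ⟨t, -, ht, hΦ⟩ := key n
  rw [hn, mem_bot] at ht
  rw [ht] at hΦ
  exact hΦ h1

namespace Best

variable {S Q R D A : Subgroup G} (h : Best S Q R D A)

include h

/-- the bound 3 -/
theorem deg3 [Finite G] (hS : Group.IsNilpotent S) {y : G} (hy : y ∈ Q) (hTD : elemComm y A ≤ D)
    (hT : ∀ s ∈ elemComm y A, ∀ t ∈ elemComm y A, s * t = t * s) {K : Subgroup G}
    (hK : ∀ a ∈ A, a ∈ Q → ⁅y, a⁆ ∈ K) (hKA : ∀ a ∈ A, ∀ k ∈ K, a * k * a⁻¹ ∈ K) :
    ∀ a ∈ A, ∀ b ∈ A, ∀ c ∈ A, ⁅a, ⁅b, ⁅y, c⁆⁆⁆ ∈ K := by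
  have hA := h.Aab
  set T := elemComm y A with hTd
  by_cases hF : ∀ t ∈ T, ∀ a ∈ A, ∀ b ∈ A, ⁅a, ⁅b, t⁆⁆ = 1
  · intro a ha b hb c hc
    rw [hF _ (mem_elemComm y A hc) a ha b hb]
    exact one_mem K
  push Not at hF
  have hTS : T ≤ S := elemComm_le h.AS (h.QS hy)
  obtain ⟨t₀, ht₀, hn, hz⟩ := exists_last hS hTS h.AS (fun c hc t ht => comm_mem hc ht)
    (fun t => ∀ a ∈ A, ∀ b ∈ A, ⁅a, ⁅b, t⁆⁆ = 1) (by intro a _ b _; simp) (by
      obtain ⟨t, ht, a, ha, b, hb, hab⟩ := hF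
      exact ⟨t, ht, fun hh => hab (hh a ha b hb)⟩)
  obtain ⟨-, hbij⟩ := repl h.mem (h.QS hy) hT
  obtain ⟨b₀, hb₀, hc₀⟩ := hbij t₀ ht₀
  set z := ⁅y, b₀⁆ with hzd
  have hzT : z ∈ T := mem_elemComm y A hb₀
  have hc₀T : z⁻¹ * t₀ ∈ T := mul_mem (inv_mem hzT) ht₀
  have hAone : ∀ a ∈ A, ∀ c ∈ A, ⁅a, c⁆ = 1 := fun a ha c hc => commutatorElement_eq_one_iff_mul_comm.2 (hA a ha c hc)
  -- commutators with `z` and `t₀` agree
  have hzt : ∀ a ∈ A, ⁅a, z⁆ = ⁅a, t₀⁆ := by
    intro a ha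
    have h1 := comm_mul hT ha hzT hc₀T
    rw [mul_inv_cancel_left, hAone a ha _ hc₀, mul_one] at h1
    exact h1.symm
  -- the subgroup `[z, A]`
  have hT' : elemComm z A ≤ T := by
    rw [elemComm_le_iff]
    intro a ha
    have h1 := inv_mem (comm_mem ha hzT)
    rwa [commutatorElement_inv] at h1
  have hzn : ∀ e ∈ A, ⁅z, e⁆ = ⁅e, z⁆⁻¹ := fun e _ => (commutatorElement_inv e z).symm
  rcases h.dich (h.DQ (hTD hzT)) (hT'.trans hTD) (fun s hs t ht => hT s (hT' hs) t (hT' ht)) with h1 | h1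
  · exfalso
    apply hn
    intro a ha b hb
    rw [← hzt b hb]
    have h2 : ⁅z, b⁆ ∈ A := h1 (mem_elemComm z A hb)
    rw [hzn b hb] at h2
    exact hAone a ha _ ((inv_mem_iff).1 h2)
  · -- third commutators
    have h3 : ∀ t ∈ T, ∀ e ∈ A, ∀ b ∈ A, ⁅e, ⁅b, ⁅b₀, t⁆⁆⁆ = 1 := by
      intro t ht e he b hb
      have h4 : T ≤ { carrier := {t | t ∈ T ∧ ⁅e, ⁅b, ⁅b₀, t⁆⁆⁆ = 1}
                      mul_mem' := by
                        rintro s t ⟨hs, hs'⟩ ⟨ht, ht'⟩
                        refine ⟨mul_mem hs ht, ?_⟩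
                        have m1 := comm_mem hb₀ hs
                        have m2 := comm_mem hb₀ ht
                        rw [comm_mul hT hb₀ hs ht, comm_mul hT hb m1 m2,
                          comm_mul hT he (comm_mem hb m1) (comm_mem hb m2), hs', ht', mul_one]
                      one_mem' := ⟨one_mem _, by simp⟩
                      inv_mem' := by
                        rintro s ⟨hs, hs'⟩
                        refine ⟨inv_mem hs, ?_⟩
                        have m1 := comm_mem hb₀ hs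
                        rw [comm_inv hT hb₀ hs, comm_inv hT hb m1, comm_inv hT he (comm_mem hb m1), hs', inv_one] :
                      Subgroup G } := by
        refine (elemComm_le_iff y A _).2 ?_
        intro d hd
        refine ⟨mem_elemComm y A hd, ?_⟩
        rw [swap hA hT hb₀ hd, ← hzd, hzt d hd]
        exact hz d hd e he b hb
      exact (h4 ht).2
    -- the main step
    have h4 : ∀ t ∈ T, ∀ b ∈ A, ∃ k ∈ K, k ∈ T ∧ k⁻¹ * ⁅b, t⁆ ∈ A := by
      intro t ht b hb
      obtain ⟨a, ha, hac⟩ := hbij ⁅b, t⁆ (comm_mem hb ht)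
      refine ⟨⁅y, a⁆, hK a ha (h1 ⟨ha, ?_⟩), mem_elemComm y A ha, hac⟩
      have hya := mem_elemComm y A ha
      have hbt := comm_mem hb ht
      have h5 : elemComm z A ≤ centralizer ({a} : Set G) := by
        rw [elemComm_le_iff]
        intro e he
        rw [mem_centralizer_singleton_iff, ← commutatorElement_eq_one_iff_mul_comm, hzn e he,
          ← commutatorElement_inv, comm_inv hT ha (comm_mem he hzT), inv_inv]
        rw [comm_comm hA hT ha he hzT, hzd, swap hA hT ha hb₀]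
        have h6 : ⁅b₀, ⁅y, a⁆⁆ = ⁅b₀, ⁅b, t⁆⁆ := by
          have h7 := comm_mul hT hb₀ hya (mul_mem (inv_mem hya) hbt)
          rw [mul_inv_cancel_left, hAone b₀ hb₀ _ hac, mul_one] at h7
          exact h7.symm
        rw [h6, comm_comm hA hT hb₀ hb ht]
        exact h3 t ht e he b hb
      exact mem_centralizer_iff.2 fun s hs => mem_centralizer_singleton_iff.1 (h5 hs)
    intro a ha b hb c hc
    obtain ⟨k, hk, hkT, hkA⟩ := h4 _ (mem_elemComm y A hc) b hb
    have hbt := comm_mem hb (mem_elemComm y A hc)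
    have h5 := comm_mul hT ha hkT (mul_mem (inv_mem hkT) hbt)
    rw [mul_inv_cancel_left, hAone a ha _ hkA, mul_one] at h5
    rw [h5, commutatorElement_def]
    exact mul_mem (hKA a ha k hk) (inv_mem hk)

end Best

end Cfsg.Agent.H587.S3068
end

-- part: H587/S3068/Red
section
/-!
# S3068: the reduction (helper587)

`Core p` is the local statement; `iso_of_core` gives `G / O^p(G) ≅ M / O^p(M)`.
-/

set_option autoImplicit false

namespace Cfsg.Agent.H587.S3068

open Subgroup Cfsg Cfsg.Agent.H39 Cfsg.Agent.PLocal.ThompsonJA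
open scoped commutatorElement

universe u

/-- the functor `J` -/
def JF : Fn.{u} := fun Q _ => thompsonSubgroupA Q

theorem induced_JF {X : Type u} [Group X] (P : Subgroup X) :
    inducedFunctor (G := X) JF P = thompsonSubgroupAOf P := rfl

theorem thompsonSubgroupAOf_top {Q : Type*} [Group Q] :
    thompsonSubgroupAOf (⊤ : Subgroup Q) = thompsonSubgroupA Q := by
  rw [thompsonSubgroupAOf_eq_sSup, thompsonSubgroupA]
  congr 1
  ext A
  exact ⟨fun h => ⟨h.2.1, fun B hB => h.2.2 B le_top hB⟩, fun h => ⟨le_top, h.1, fun B _ hB => h.2 B hB⟩⟩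

theorem charJF {p : ℕ} [Fact p.Prime] : IsCharPFunctor.{u} p JF := by
  constructor
  · intro Q _ _ hQ hnt h
    have h1 := centerThompsonAOf_ne_bot (p := p) (⊤ : Subgroup Q) (hQ.to_subgroup _) top_ne_bot
    apply h1
    rw [eq_bot_iff]
    refine (centerThompsonAOf_le_thompsonSubgroupAOf _).trans ?_
    rw [thompsonSubgroupAOf_top]
    exact h.le
  · intro Q R _ _ _ hQ φ
    have h1 := map_thompsonSubgroupAOf φ.toMonoidHom φ.injective (⊤ : Subgroup Q)
    rw [Subgroup.map_top_of_surjective _ φ.surjective, thompsonSubgroupAOf_top, thompsonSubgroupAOf_top] at h1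
    exact h1

/-- the core statement -/
def Core (p : ℕ) : Prop := ∀ (G : Type u) [Group G] [Finite G] (S : Sylow p G) (M : Subgroup G),
  centralizer (pCore p G : Set G) ≤ pCore p G → M ≠ ⊤ →
  (∀ H : Subgroup G, (S : Subgroup G) ≤ H → H ≠ ⊤ → H ≤ M) →
  ¬ (thompsonSubgroupAOf (S : Subgroup G)).Normal →
  ∃ u : G, u ∈ (S : Subgroup G) ∧ u ∉ pCore p G ∧ Good p (pCore p G) u

theorem ft_of_core {p : ℕ} [Fact p.Prime] (hcore : Core.{u} p) :
    ∀ n : ℕ, ∀ (G : Type u) [Group G] [Finite G], Nat.card G = n → FT p {JF} G := by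
  intro n
  induction n using Nat.strong_induction_on with
  | _ n ih =>
    intro G _ _ hn
    have h𝓦 : ∀ W' ∈ ({JF} : Set Fn.{u}), IsCharPFunctor.{u} p W' := by
      rintro W' rfl; exact charJF
    by_contra hG
    obtain ⟨S⟩ : Nonempty (Sylow p G) := inferInstance
    obtain ⟨h1, ⟨h2, h3⟩, -, h4⟩ := minimal_failure h𝓦 ⟨JF, rfl⟩
      (fun X _ _ _ hlt => ih _ (hn ▸ hlt) X rfl) hG S rfl rfl
    have hnn : ¬ (thompsonSubgroupAOf (S : Subgroup G)).Normal := fun h =>
      hG (ft_of_normal h𝓦 S (W := JF) rfl h)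
    obtain ⟨u, hu1, hu2, hu3⟩ := hcore G S _ h1 h2 h3 hnn
    exact h4 u hu1 hu2 hu3

theorem iso_of_ft {G : Type u} [Group G] [Finite G] {p : ℕ} [Fact p.Prime] (h : FT p {JF} G) (S : Sylow p G)
    [hn : (pResidual p G).Normal]
    [hm : (pResidual p ↥(normalizer (thompsonSubgroupAOf (S : Subgroup G) : Set G))).Normal] :
    Nonempty (G ⧸ pResidual p G ≃*
      ↥(normalizer (thompsonSubgroupAOf (S : Subgroup G) : Set G)) ⧸
        pResidual p ↥(normalizer (thompsonSubgroupAOf (S : Subgroup G) : Set G))) := by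
  set M := normalizer (thompsonSubgroupAOf (S : Subgroup G) : Set G) with hM
  have hSM : (S : Subgroup G) ≤ M := le_normalizer.trans (normalizer_le_normalizer_thompsonSubgroupAOf _)
  have h1 := h S
  rw [focalI_singleton, induced_JF, top_inf_eq, ← hM] at h1
  have hMi : ¬ p ∣ M.index := fun hd => S.not_dvd_index (hd.trans (index_dvd_of_le hSM))
  have hSi : ¬ p ∣ ((S : Subgroup G).subgroupOf M).index := fun hd =>
    S.not_dvd_index (hd.trans (relIndex_dvd_index_of_le hSM))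
  have hA : IsPGroup p (Multiplicative (ZMod p)) := IsPGroup.of_card (n := 1) (by simp)
  have hext : ∀ f : M →* Multiplicative (ZMod p), ∃ F : G →* Multiplicative (ZMod p), ∀ h : M, F h = f h := by
    intro f
    obtain ⟨F, hF⟩ := Transfer.Tate.hom_extends_of_fusion (S : Subgroup G) S.not_dvd_index hA
      (f.comp (inclusion hSM)) (by
        intro x y g hxy
        have h2 : (x : G)⁻¹ * y ∈ (S : Subgroup G) ⊓ ⁅(⊤ : Subgroup G), ⊤⁆ := by
          refine ⟨(S : Subgroup G).mul_mem ((S : Subgroup G).inv_mem x.2) y.2, ?_⟩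
          have e : (x : G)⁻¹ * y = ⁅(x : G)⁻¹, g⁆ := by rw [commutatorElement_def, ← hxy]; group
          rw [e]
          exact commutator_mem_commutator (mem_top _) (mem_top _)
        have h3 := (h1 h2).2
        have h4 : (inclusion hSM x)⁻¹ * inclusion hSM y ∈ (_root_.commutator M : Subgroup M) := by
          have h5 : (⁅(⊤ : Subgroup M), (⊤ : Subgroup M)⁆).map M.subtype = ⁅M, M⁆ := by
            rw [map_commutator, ← MonoidHom.range_eq_map, M.range_subtype]
          rw [← h5] at h3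
          obtain ⟨z, hz, hzx⟩ := h3
          have h6 : z = (inclusion hSM x)⁻¹ * inclusion hSM y := Subtype.ext hzx
          rw [← h6]; exact hz
        have h5 : f ((inclusion hSM x)⁻¹ * inclusion hSM y) = 1 := by
          have h6 := Abelianization.commutator_subset_ker f h4
          exact h6
        rw [map_mul, map_inv, inv_mul_eq_one] at h5
        exact h5)
    refine ⟨F, ?_⟩
    have := Transfer.Residual.hom_eq_of_eq_on (H := (S : Subgroup G).subgroupOf M) hSi hA
      (f := F.comp M.subtype) (f' := f) (by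
        intro x hx
        have := hF ⟨x, hx⟩
        exact this)
    intro x
    exact DFunLike.congr_fun this x
  have h2 := Transfer.Tate.tate_residual M hMi hext
  -- the isomorphism
  let f : M →* G ⧸ pResidual p G := (QuotientGroup.mk' (pResidual p G)).comp M.subtype
  have hker : f.ker = pResidual p M := by
    ext x
    rw [MonoidHom.mem_ker]
    change ((x : G) : G ⧸ pResidual p G) = 1 ↔ _
    rw [QuotientGroup.eq_one_iff]
    constructor
    · intro hx
      have h3 : (x : G) ∈ (pResidual p M).map M.subtype := by rw [← h2]; exact ⟨x.2, hx⟩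
      obtain ⟨z, hz, hzx⟩ := h3
      have h6 : z = x := Subtype.ext hzx
      rw [← h6]; exact hz
    · intro hx
      have h3 : (x : G) ∈ M ⊓ pResidual p G := by rw [h2]; exact mem_map_of_mem _ hx
      exact h3.2
  have hsur : Function.Surjective f := by
    rw [← MonoidHom.range_eq_top]
    have h3 : IsPGroup p (G ⧸ pResidual p G) := Transfer.Residual.isPGroup_quotient_pResidual
    have h4 : f.range = M.map (QuotientGroup.mk' (pResidual p G)) := by
      rw [MonoidHom.range_comp, M.range_subtype]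
    rw [← index_eq_one, h4]
    obtain ⟨k, hk⟩ := h3.index (M.map (QuotientGroup.mk' (pResidual p G)))
    have h5 : (M.map (QuotientGroup.mk' (pResidual p G))).index ∣ M.index :=
      index_map_dvd M (QuotientGroup.mk'_surjective _)
    rw [hk] at h5 ⊢
    rcases Nat.eq_zero_or_pos k with rfl | hk0
    · simp
    · exact absurd ((dvd_pow_self p hk0.ne').trans h5) hMi
  have e1 := QuotientGroup.quotientKerEquivOfSurjective f hsur
  have e2 : M ⧸ pResidual p M ≃* M ⧸ f.ker := QuotientGroup.quotientMulEquivOfEq hker.symm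
  exact ⟨(e2.trans e1).symm⟩

/-- **S3068 from the core statement** -/
theorem iso_of_core {G : Type u} [Group G] [Finite G] {p : ℕ} [Fact p.Prime] (hcore : Core.{u} p) (S : Sylow p G)
    [hn : (pResidual p G).Normal]
    [hm : (pResidual p ↥(normalizer (thompsonSubgroupAOf (S : Subgroup G) : Set G))).Normal] :
    Nonempty (G ⧸ pResidual p G ≃*
      ↥(normalizer (thompsonSubgroupAOf (S : Subgroup G) : Set G)) ⧸
        pResidual p ↥(normalizer (thompsonSubgroupAOf (S : Subgroup G) : Set G))) :=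
  iso_of_ft (ft_of_core hcore _ G rfl) S

end Cfsg.Agent.H587.S3068
end

-- part: H587/S3068/Thm
section
/-!
# S3068: the pieces T1, T2, T3 in the form of the plan (helper587)
-/

set_option autoImplicit false
set_option linter.unusedSectionVars false

namespace Cfsg.Agent.H587.S3068

open Subgroup Cfsg Cfsg.Agent.PLocal Cfsg.Agent.PLocal.ThompsonJA Cfsg.Agent.H215.J7
open Cfsg.Agent.PLocal.ThompsonReplacement (elemComm mem_elemComm elemComm_le_iff)
open scoped commutatorElement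

universe u

variable {G : Type u} [Group G] [Finite G] {p : ℕ} [Fact p.Prime]

theorem ab_iff {A : Subgroup G} : Ab A ↔ IsMulCommutative A := (ThompsonJA.isMulCommutative_iff A).symm

/-! ### T1 -/

theorem t1_reduction (_hp : 7 ≤ p)
    (hgood : ∀ (X : Type u) [Group X] [Finite X] (S : Sylow p X) (M : Subgroup X), Cfg p (S : Subgroup X) M →
      ¬ thompsonSubgroupAOf (S : Subgroup X) ≤ pCore p X →
      ∃ g : X, g ∈ (S : Subgroup X) ∧ g ∉ pCore p X ∧ H39.Good p (pCore p X) g)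
    (S : Sylow p G)
    [hn : (Cfsg.pResidual p G).Normal]
    [hm : (Cfsg.pResidual p ↥(Subgroup.normalizer (Cfsg.thompsonSubgroupAOf (S : Subgroup G) : Set G))).Normal] :
    Nonempty (G ⧸ Cfsg.pResidual p G ≃*
      ↥(Subgroup.normalizer (Cfsg.thompsonSubgroupAOf (S : Subgroup G) : Set G)) ⧸
        Cfsg.pResidual p ↥(Subgroup.normalizer (Cfsg.thompsonSubgroupAOf (S : Subgroup G) : Set G))) := by
  refine iso_of_core (p := p) ?_ S
  intro X _ _ S' M h1 h2 h3 h4
  refine hgood X S' M ⟨h1, h2, h3⟩ fun hle => h4 ?_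
  have h5 := thompsonSubgroupAOf_eq_of_le hle (Lib.Cores.pCore_le_sylow S')
  rw [← h5, ← normalizer_eq_top_iff, eq_top_iff]
  refine le_trans ?_ (normalizer_le_normalizer_thompsonSubgroupAOf _)
  have := Lib.Cores.pCore_normal (G := X) p
  rw [normalizer_eq_top]

/-! ### T2 -/

theorem t2_exists_pick (S : Sylow p G) (hJ : ¬ thompsonSubgroupAOf (S : Subgroup G) ≤ pCore p G)
    (R D : Subgroup G) : ∃ A : Subgroup G, Pick (S : Subgroup G) (pCore p G) R D A := by
  classical
  have hex : ∃ A₀ ∈ maxAbelianIn (S : Subgroup G), ¬ A₀ ≤ pCore p G := by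
    by_contra hcon
    push Not at hcon
    apply hJ
    rw [thompsonSubgroupAOf_eq_sSup]
    exact sSup_le hcon
  obtain ⟨A₀, hA₀, hA₀Q⟩ := hex
  set Q := pCore p G with hQ
  set N := Nat.card G + 1 with hN
  obtain ⟨A, ⟨hA1, hA2⟩, hA3⟩ := Set.exists_max_image {A : Subgroup G | A ∈ maxAbelianIn (S : Subgroup G) ∧ ¬ A ≤ Q}
    (fun A => (Nat.card (A ⊓ ZZ Q : Subgroup G) * N + Nat.card (A ⊓ R : Subgroup G)) * N + Nat.card (A ⊓ D : Subgroup G))
    (Set.toFinite _) ⟨A₀, hA₀, hA₀Q⟩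
  have hlt : ∀ K : Subgroup G, Nat.card K < N := fun K => Nat.lt_succ_of_le (Subgroup.card_le_card_group _)
  have hmem : ∀ B ≤ (S : Subgroup G), Ab B → Nat.card B = Nat.card A → ¬ B ≤ Q →
      (Nat.card (B ⊓ ZZ Q : Subgroup G) * N + Nat.card (B ⊓ R : Subgroup G)) * N + Nat.card (B ⊓ D : Subgroup G) ≤
      (Nat.card (A ⊓ ZZ Q : Subgroup G) * N + Nat.card (A ⊓ R : Subgroup G)) * N + Nat.card (A ⊓ D : Subgroup G) := by
    intro B hB hBc hc hBQ
    exact hA3 B ⟨⟨hB, ab_iff.1 hBc, fun C hC hCc => by rw [hc]; exact hA1.2.2 C hC hCc⟩, hBQ⟩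
  refine ⟨A, hA1.1, ab_iff.2 hA1.2.1, fun B hB hBc => hA1.2.2 B hB (ab_iff.1 hBc), hA2, ?_, ?_, ?_⟩
  · intro B hB hBc hc hBQ
    have h1 := hmem B hB hBc hc hBQ
    by_contra h4
    have h5 : Nat.card (A ⊓ ZZ Q : Subgroup G) + 1 ≤ Nat.card (B ⊓ ZZ Q : Subgroup G) := by omega
    have h6 := Nat.mul_le_mul_right N h5
    rw [add_mul, one_mul] at h6
    have h7 := hlt (A ⊓ R)
    have h8 := hlt (A ⊓ D)
    have h9 : (Nat.card (A ⊓ ZZ Q : Subgroup G) * N + Nat.card (A ⊓ R : Subgroup G)) + 1 ≤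
      Nat.card (B ⊓ ZZ Q : Subgroup G) * N + Nat.card (B ⊓ R : Subgroup G) := by omega
    have h10 := Nat.mul_le_mul_right N h9
    rw [add_mul _ 1 N, one_mul] at h10
    omega
  · intro B hB hBc hc hBQ hZ
    have h1 := hmem B hB hBc hc hBQ
    rw [hZ] at h1
    by_contra h4
    have h9 : (Nat.card (A ⊓ ZZ Q : Subgroup G) * N + Nat.card (A ⊓ R : Subgroup G)) + 1 ≤
      Nat.card (A ⊓ ZZ Q : Subgroup G) * N + Nat.card (B ⊓ R : Subgroup G) := by omega
    have h10 := Nat.mul_le_mul_right N h9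
    rw [add_mul _ 1 N, one_mul] at h10
    have h8 := hlt (A ⊓ D)
    omega
  · intro B hB hBc hc hBQ hZ hR
    have h1 := hmem B hB hBc hc hBQ
    rw [hZ, hR] at h1
    omega

/-! ### T3 -/

section T3

variable {R D A : Subgroup G}

theorem best_of_pick (S : Sylow p G) (h : RD p (pCore p G) R D) (hA : Pick (S : Subgroup G) (pCore p G) R D A) :
    Best (S : Subgroup G) (pCore p G) R D A := by
  have hmem : A ∈ maxAbelianIn (S : Subgroup G) := ⟨hA.le, ab_iff.1 hA.comm, fun B hB hBc => hA.max B hB (ab_iff.2 hBc)⟩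
  refine ⟨Lib.Cores.pCore_le_sylow S, h.le, h.leQ, h.DR, ?_, hmem, hA.not_le, ?_⟩
  · intro d hd q hq
    rw [← commutatorElement_inv]
    exact inv_mem (h.DQ (commutator_mem_commutator hd hq))
  · intro B hB hBQ hAB
    have hBA : Nat.card B = Nat.card A := le_antisymm (hA.max B hB.1 (ab_iff.2 hB.2.1)) (hB.2.2 A hA.le hmem.2.1)
    have h1 := hA.lexZ B hB.1 (ab_iff.2 hB.2.1) hBA hBQ
    have h2 : Nat.card (A ⊓ ZZ (pCore p G) : Subgroup G) ≤ Nat.card (B ⊓ ZZ (pCore p G) : Subgroup G) :=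
      Subgroup.card_le_of_le (le_inf hAB inf_le_right)
    have h3 := le_antisymm h1 h2
    exact ⟨hA.lexR B hB.1 (ab_iff.2 hB.2.1) hBA hBQ h3, hA.lexD B hB.1 (ab_iff.2 hB.2.1) hBA hBQ h3⟩

theorem elemComm_le_of_normal {K : Subgroup G} (hK : K.Normal) {y : G} (hy : y ∈ K) (A : Subgroup G) :
    elemComm y A ≤ K := by
  rw [elemComm_le_iff]
  intro a _
  have : ⁅y, a⁆ = y * (a * y⁻¹ * a⁻¹) := by rw [commutatorElement_def]; group
  rw [this]
  exact mul_mem hy (hK.conj_mem _ (inv_mem hy) a)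

/-- `[Z(Q), A, A] = 1` -/
theorem t3_quad (S : Sylow p G) (h : RD p (pCore p G) R D)
    (hA : Pick (S : Subgroup G) (pCore p G) R D A) :
    ∀ z ∈ ZZ (pCore p G), ∀ a ∈ A, ∀ b ∈ A, ⁅a, ⁅b, z⁆⁆ = 1 := by
  have hb := best_of_pick S h hA
  have hQn := Lib.Cores.pCore_normal (G := G) p
  have hSn : Group.IsNilpotent (S : Subgroup G) := S.isPGroup'.isNilpotent
  set Q := pCore p G with hQ
  have hZn : (ZZ Q).Normal := by
    rw [ZZ]; infer_instance
  have hZD : ZZ Q ≤ D := h.ZR.trans h.le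
  have hAab := hb.Aab
  have key : ∀ z ∈ ZZ Q, ∀ b ∈ A, ⁅b, z⁆ ∈ A := by
    by_contra hcon
    push Not at hcon
    obtain ⟨z₁, hz₁, b₁, hb₁, hn₁⟩ := hcon
    obtain ⟨z, hz, hnz, hzl⟩ := exists_last (T := ZZ Q) hSn ((inf_le_left : ZZ Q ≤ Q).trans hb.QS) hb.AS (by
        intro c _ t ht
        rw [commutatorElement_def]
        exact mul_mem (hZn.conj_mem _ ht c) (inv_mem ht))
      (fun z => ∀ b ∈ A, ⁅b, z⁆ ∈ A) (by intro b _; simp) ⟨z₁, hz₁, fun hh => hn₁ (hh b₁ hb₁)⟩
    have hTZ : elemComm z A ≤ ZZ Q := elemComm_le_of_normal hZn hz A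
    have hTab : ∀ s ∈ elemComm z A, ∀ t ∈ elemComm z A, s * t = t * s := fun s hs t ht =>
      mem_centralizer_iff.1 (hTZ ht).2 s (hTZ hs).1
    rcases hb.dich hz.1 (hTZ.trans hZD) hTab with h1 | h1
    · apply hnz
      intro b hb'
      rw [← commutatorElement_inv]
      exact inv_mem (h1 (mem_elemComm z A hb'))
    · obtain ⟨hB, -⟩ := repl hb.mem (hb.QS hz.1) hTab
      set C := A ⊓ centralizer (elemComm z A : Set G) with hC
      have hBQ : elemComm z A ⊔ C ≤ Q := sup_le (hTZ.trans inf_le_left) h1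
      -- `Z(Q) ≤ T C`
      have hZB : ZZ Q ≤ elemComm z A ⊔ C := by
        refine le_trans ?_ (inf_centralizer_le_of_mem_maxAbelianIn hB)
        refine le_inf ((inf_le_left : ZZ Q ≤ Q).trans hb.QS) ?_
        intro x hx
        rw [mem_centralizer_iff]
        intro y hy
        exact mem_centralizer_iff.1 hx.2 y (hBQ hy)
      obtain ⟨t, ht, c, hc, htc⟩ : ∃ t ∈ elemComm z A, ∃ c ∈ C, t * c = z := by
        have h2 : z ∈ ((elemComm z A ⊔ C : Subgroup G) : Set G) := hZB hz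
        rw [Subgroup.coe_mul_of_right_le_normalizer_left _ C
          ((inf_le_right : C ≤ _).trans (centralizer_le_normalizer _))] at h2
        exact h2
      apply hnz
      intro b hb'
      -- `[b, t c] = [b, t]`
      have h3 : ⁅b, z⁆ = ⁅b, t⁆ := by
        have h4 : c * b = b * c := hAab c hc.1 b hb'
        rw [← htc, commutatorElement_def, commutatorElement_def]
        calc b * (t * c) * b⁻¹ * (t * c)⁻¹ = b * t * (c * b⁻¹) * c⁻¹ * t⁻¹ := by group
          _ = b * t * (b⁻¹ * c) * c⁻¹ * t⁻¹ := by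
              have h5 : c * b⁻¹ = b⁻¹ * c := hAab c hc.1 _ (inv_mem hb')
              rw [h5]
          _ = _ := by group
      rw [h3]
      -- `[b, t] ∈ A` for `t ∈ T`
      have h4 : elemComm z A ≤ { carrier := {t | t ∈ elemComm z A ∧ ⁅b, t⁆ ∈ A}
                                 mul_mem' := by
                                   rintro s t ⟨hs, hs'⟩ ⟨ht, ht'⟩
                                   refine ⟨mul_mem hs ht, ?_⟩
                                   rw [comm_mul hTab hb' hs ht]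
                                   exact mul_mem hs' ht'
                                 one_mem' := ⟨one_mem _, by simp⟩
                                 inv_mem' := by
                                   rintro s ⟨hs, hs'⟩
                                   refine ⟨inv_mem hs, ?_⟩
                                   rw [comm_inv hTab hb' hs]
                                   exact inv_mem hs' : Subgroup G } := by
        refine (elemComm_le_iff z A _).2 ?_
        intro a ha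
        refine ⟨mem_elemComm z A ha, ?_⟩
        have h5 := hzl a ha b hb'
        have h6 := comm_inv hTab hb' (mem_elemComm z A ha)
        rw [commutatorElement_inv] at h6
        rw [h6] at h5
        exact inv_mem_iff.1 h5
      exact (h4 ht).2
  intro z hz a ha b hb'
  exact commutatorElement_eq_one_iff_mul_comm.2 (hAab a ha _ (key z hz b hb'))

theorem triple_inv {y : G}
    (hT : ∀ s ∈ elemComm y A, ∀ t ∈ elemComm y A, s * t = t * s) {a b c : G} (ha : a ∈ A) (hb : b ∈ A) (hc : c ∈ A) :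
    ⁅c, ⁅b, ⁅a, y⁆⁆⁆ = ⁅c, ⁅b, ⁅y, a⁆⁆⁆⁻¹ := by
  have h1 := mem_elemComm y A ha
  rw [← commutatorElement_inv y a, comm_inv hT hb h1, comm_inv hT hc (comm_mem hb h1)]

/-- `[X, A, A, A] ≤ [X, Q]` for normal `X ≤ R` -/
theorem t3_cubic (S : Sylow p G) (h : RD p (pCore p G) R D)
    (hA : Pick (S : Subgroup G) (pCore p G) R D A) {X : Subgroup G} (hX : X.Normal) (hXR : X ≤ R) :
    ∀ x ∈ X, ∀ a ∈ A, ∀ b ∈ A, ∀ c ∈ A, ⁅c, ⁅b, ⁅a, x⁆⁆⁆ ∈ ⁅X, pCore p G⁆ := by
  intro x hx a ha b hb c hc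
  have hbest := best_of_pick S h hA
  have hQn := Lib.Cores.pCore_normal (G := G) p
  have hSn : Group.IsNilpotent (S : Subgroup G) := S.isPGroup'.isNilpotent
  have hTR : elemComm x A ≤ R := elemComm_le_of_normal h.Rn (hXR hx) A
  have hT : ∀ s ∈ elemComm x A, ∀ t ∈ elemComm x A, s * t = t * s := fun s hs t ht => h.Rab s (hTR hs) t (hTR ht)
  rw [triple_inv hT ha hb hc]
  refine inv_mem ?_
  have hKn : (⁅X, pCore p G⁆).Normal := inferInstance
  exact hbest.deg3 hSn (h.leQ (h.le (hXR hx))) (hTR.trans h.le) hT (K := ⁅X, pCore p G⁆)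
    (fun a _ haQ => commutator_mem_commutator hx haQ) (fun a _ k hk => hKn.conj_mem k hk a) c hc b hb a ha

/-- `[y, A, A, A] ≤ R` if `y ∈ D` and `[y, A]` is abelian -/
theorem t3_form (S : Sylow p G) (h : RD p (pCore p G) R D)
    (hA : Pick (S : Subgroup G) (pCore p G) R D A) {y : G} (hy : y ∈ D)
    (hyA : ∀ a ∈ A, ∀ b ∈ A, ⁅a, y⁆ * ⁅b, y⁆ = ⁅b, y⁆ * ⁅a, y⁆) :
    ∀ a ∈ A, ∀ b ∈ A, ∀ c ∈ A, ⁅c, ⁅b, ⁅a, y⁆⁆⁆ ∈ R := by
  intro a ha b hb c hc
  have hbest := best_of_pick S h hA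
  have hSn : Group.IsNilpotent (S : Subgroup G) := S.isPGroup'.isNilpotent
  have hTD : elemComm y A ≤ D := elemComm_le_of_normal h.Dn hy A
  have hT : ∀ s ∈ elemComm y A, ∀ t ∈ elemComm y A, s * t = t * s := by
    have h1 : ∀ a ∈ A, elemComm y A ≤ centralizer ({⁅y, a⁆} : Set G) := by
      intro a ha
      rw [elemComm_le_iff]
      intro b hb
      rw [mem_centralizer_singleton_iff]
      have h2 := hyA a ha b hb
      rw [← commutatorElement_inv y a, ← commutatorElement_inv y b] at h2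
      have h3 := congrArg (·⁻¹) h2
      simp only [mul_inv_rev, inv_inv] at h3
      exact h3
    have h2 : elemComm y A ≤ centralizer (elemComm y A : Set G) := by
      rw [elemComm_le_iff]
      intro a ha
      rw [mem_centralizer_iff]
      intro t ht
      exact mem_centralizer_singleton_iff.1 (h1 a ha ht)
    intro s hs t ht
    exact mem_centralizer_iff.1 (h2 ht) s hs
  rw [triple_inv hT ha hb hc]
  refine inv_mem ?_
  have hRn := h.Rn
  exact hbest.deg3 hSn (h.leQ hy) hTD hT (K := R)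
    (fun a _ haQ => h.DQ (commutator_mem_commutator hy haQ)) (fun a _ k hk => hRn.conj_mem k hk a) c hc b hb a ha

end T3

end Cfsg.Agent.H587.S3068
end

-- part: H575/J7/Layers
section
/-!
# S3068, task T8: the layers (helper575)

`t8_good`, `t8_six`: bounds for the action of an element on chief factors below `O_p(G)` from elementwise bounds on
`R` and on `D / R`.
-/

set_option autoImplicit false

namespace Cfsg.Agent.H575.J7

open Subgroup Cfsg Cfsg.Agent.H215.J7
open scoped commutatorElement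

universe u

section Elem

variable {G : Type*} [Group G]

/-- the map `x ↦ [u, x]` -/
def dl (u x : G) : G := ⁅u, x⁆

theorem dl_mem {U : Subgroup G} (hU : U.Normal) (u : G) {x : G} (hx : x ∈ U) : dl u x ∈ U := by
  unfold dl
  rw [commutatorElement_def]
  exact mul_mem (hU.conj_mem x hx u) (inv_mem hx)

theorem dl_mul {U : Subgroup G} (hU : U.Normal) (hab : Ab U) (u : G) {x y : G} (hx : x ∈ U) (hy : y ∈ U) :
    dl u (x * y) = dl u x * dl u y := by
  have h1 : x * dl u y = dl u y * x := hab x hx _ (dl_mem hU u hy)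
  have h2 : dl u (x * y) = dl u x * (x * dl u y * x⁻¹) := by
    simp only [dl, commutatorElement_def]; group
  rw [h2, h1, mul_inv_cancel_right]

theorem dl_conj (u x : G) : dl u (u * x * u⁻¹) = u * dl u x * u⁻¹ := by
  simp only [dl, commutatorElement_def]; group

theorem dl_one (u : G) : dl u 1 = 1 := by simp [dl]

theorem it_mem {U : Subgroup G} (hU : U.Normal) (u : G) (n : ℕ) {x : G} (hx : x ∈ U) : (dl u)^[n] x ∈ U := by
  induction n generalizing x with
  | zero => exact hx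
  | succ n ih => exact ih (dl_mem hU u hx)

theorem it_mul {U : Subgroup G} (hU : U.Normal) (hab : Ab U) (u : G) (n : ℕ) {x y : G} (hx : x ∈ U) (hy : y ∈ U) :
    (dl u)^[n] (x * y) = (dl u)^[n] x * (dl u)^[n] y := by
  induction n generalizing x y with
  | zero => rfl
  | succ n ih =>
    rw [Function.iterate_succ_apply, Function.iterate_succ_apply, Function.iterate_succ_apply, dl_mul hU hab u hx hy]
    exact ih (dl_mem hU u hx) (dl_mem hU u hy)

theorem it_one (u : G) (n : ℕ) : (dl u)^[n] 1 = 1 := by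
  induction n with
  | zero => rfl
  | succ n ih => rw [Function.iterate_succ_apply, dl_one, ih]

theorem it_conj (u : G) (n : ℕ) (x : G) : (dl u)^[n] (u * x * u⁻¹) = u * (dl u)^[n] x * u⁻¹ := by
  induction n generalizing x with
  | zero => rfl
  | succ n ih => rw [Function.iterate_succ_apply, Function.iterate_succ_apply, dl_conj, ih]

/-- the kernel filtration of `x ↦ [u, x]` on an abelian normal subgroup -/
def ker {U : Subgroup G} (hU : U.Normal) (hab : Ab U) (u : G) (j : ℕ) : Subgroup G where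
  carrier := {x | x ∈ U ∧ (dl u)^[j] x = 1}
  one_mem' := ⟨one_mem _, it_one u j⟩
  mul_mem' := by
    rintro a b ⟨ha, ha'⟩ ⟨hb, hb'⟩
    exact ⟨mul_mem ha hb, by rw [it_mul hU hab u j ha hb, ha', hb', one_mul]⟩
  inv_mem' := by
    rintro a ⟨ha, ha'⟩
    refine ⟨inv_mem ha, ?_⟩
    have h1 := it_mul hU hab u j (inv_mem ha) ha
    rw [inv_mul_cancel, it_one, ha', mul_one] at h1
    exact h1.symm

theorem mem_ker {U : Subgroup G} (hU : U.Normal) (hab : Ab U) (u : G) (j : ℕ) {x : G} :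
    x ∈ ker hU hab u j ↔ x ∈ U ∧ (dl u)^[j] x = 1 := Iff.rfl

theorem conj_mem_ker {U : Subgroup G} (hU : U.Normal) (hab : Ab U) (u : G) (j : ℕ) {x : G} :
    u * x * u⁻¹ ∈ ker hU hab u j ↔ x ∈ ker hU hab u j := by
  rw [mem_ker, mem_ker, it_conj, conj_eq_one_iff]
  constructor
  · rintro ⟨h1, h2⟩
    exact ⟨by simpa [mul_assoc] using hU.conj_mem _ h1 u⁻¹, h2⟩
  · rintro ⟨h1, h2⟩
    exact ⟨hU.conj_mem _ h1 u, h2⟩

theorem comm_ker_le {U : Subgroup G} (hU : U.Normal) (hab : Ab U) (u : G) (j : ℕ) :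
    ⁅ker hU hab u (j + 1), zpowers u⁆ ≤ ker hU hab u j := by
  have hn : u ∈ normalizer (ker hU hab u j : Set G) := by
    rw [mem_normalizer_iff]
    intro h
    exact (conj_mem_ker hU hab u j).symm
  have hT : zpowers u ≤ normalizer (ker hU hab u j : Set G) := by
    rw [zpowers_le]; exact hn
  -- the subgroup of the elements centralizing modulo `ker j`
  let T : Subgroup G :=
    { carrier := {g | g ∈ normalizer (ker hU hab u j : Set G) ∧
        ∀ x ∈ ker hU hab u (j + 1), ⁅x, g⁆ ∈ ker hU hab u j}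
      one_mem' := ⟨one_mem _, fun x _ => by rw [commutatorElement_one_right]; exact one_mem _⟩
      mul_mem' := by
        rintro a b ⟨ha, ha'⟩ ⟨hb, hb'⟩
        refine ⟨mul_mem ha hb, fun x hx => ?_⟩
        have h1 : ⁅x, a * b⁆ = ⁅x, a⁆ * (a * ⁅x, b⁆ * a⁻¹) := by
          simp only [commutatorElement_def]; group
        rw [h1]
        exact mul_mem (ha' x hx) ((mem_normalizer_iff.1 ha _).1 (hb' x hx))
      inv_mem' := by
        rintro a ⟨ha, ha'⟩
        refine ⟨inv_mem ha, fun x hx => ?_⟩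
        have h1 : ⁅x, a⁻¹⁆ = a⁻¹ * ⁅x, a⁆⁻¹ * a⁻¹⁻¹ := by
          simp only [commutatorElement_def]; group
        rw [h1]
        exact (mem_normalizer_iff.1 (inv_mem ha) _).1 (inv_mem (ha' x hx)) }
  have huT : u ∈ T := by
    refine ⟨hn, fun x hx => ?_⟩
    rw [← commutatorElement_inv]
    refine inv_mem ⟨dl_mem hU u hx.1, ?_⟩
    exact hx.2
  rw [commutator_le]
  intro x hx g hg
  have hgT : g ∈ T := (zpowers_le.2 huT) hg
  exact hgT.2 x hx

theorem iter_eq_bot {U : Subgroup G} (hU : U.Normal) (hab : Ab U) (u : G) (n : ℕ)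
    (h : ∀ x ∈ U, (dl u)^[n] x = 1) : iterCommutator U (zpowers u) n = ⊥ := by
  have key : ∀ k j : ℕ, k + j = n → iterCommutator U (zpowers u) k ≤ ker hU hab u j := by
    intro k
    induction k with
    | zero =>
      intro j hj x hx
      obtain rfl : j = n := by omega
      exact ⟨hx, h x hx⟩
    | succ k ih =>
      intro j hj
      exact (commutator_mono (ih (j + 1) (by omega)) le_rfl).trans (comm_ker_le hU hab u j)
  rw [eq_bot_iff]
  intro x hx
  exact (key n 0 (by omega) hx).2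

theorem it_map {H : Type*} [Group H] (f : G →* H) (u x : G) (n : ℕ) :
    f ((dl u)^[n] x) = (dl (f u))^[n] (f x) := by
  induction n generalizing x with
  | zero => rfl
  | succ n ih =>
    rw [Function.iterate_succ_apply, Function.iterate_succ_apply, ih]
    congr 1
    exact map_commutatorElement f u x

theorem iter_le {U V : Subgroup G} (hU : U.Normal) (hV : V.Normal) (hc : ∀ x ∈ U, ∀ y ∈ U, ⁅x, y⁆ ∈ V) (u : G)
    (n : ℕ) (h : ∀ x ∈ U, (dl u)^[n] x ∈ V) : iterCommutator U (zpowers u) n ≤ V := by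
  have hfs := QuotientGroup.mk'_surjective V
  have h1 : (iterCommutator U (zpowers u) n).map (QuotientGroup.mk' V) = ⊥ := by
    rw [H35.Chief.iter_map, MonoidHom.map_zpowers]
    refine iter_eq_bot (hU.map _ hfs) ?_ _ n ?_
    · rintro _ ⟨x, hx, rfl⟩ _ ⟨y, hy, rfl⟩
      rw [← commutatorElement_eq_one_iff_mul_comm, ← map_commutatorElement]
      exact (QuotientGroup.eq_one_iff _).2 (hc x hx y hy)
    · rintro _ ⟨x, hx, rfl⟩
      rw [← it_map]
      exact (QuotientGroup.eq_one_iff _).2 (h x hx)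
  rw [Subgroup.map_eq_bot_iff, QuotientGroup.ker_mk'] at h1
  exact h1

end Elem

variable {G : Type u} [Group G] [Finite G] {p : ℕ} [Fact p.Prime]

/-- chief factors in `R` -/
theorem chief_R {Q R : Subgroup G} (hQ : Q.Normal) (hQp : IsPGroup p Q) (hRQ : R ≤ Q) {u : G}
    (hR : ∀ X : Subgroup G, X.Normal → X ≤ R → ∀ x ∈ X, ⁅u, ⁅u, ⁅u, x⁆⁆⁆ ∈ ⁅X, Q⁆)
    {U V : Subgroup G} (hUV : IsChiefFactor U V) (hU : U ≤ R) : iterCommutator U (zpowers u) 3 ≤ V := by
  have hUp : IsPGroup p U := hQp.to_le (hU.trans hRQ)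
  refine iter_le hUV.2.1 hUV.2.2.1 (H39.chief_elementary hUV hUp).1 u 3 fun x hx => ?_
  exact H41.ChiefFactor.commutator_le hUV hQ hQp (hU.trans hRQ) (hR U hUV.2.1 hU x hx)

/-- chief factors in `D` -/
theorem chief_D {Q R D : Subgroup G} (hQ : Q.Normal) (hQp : IsPGroup p Q) (h : RD p Q R D) {u : G}
    (hR : ∀ X : Subgroup G, X.Normal → X ≤ R → ∀ x ∈ X, ⁅u, ⁅u, ⁅u, x⁆⁆⁆ ∈ ⁅X, Q⁆) {n : ℕ} (hn : 3 ≤ n)
    (hD : ∀ x ∈ D, (dl u)^[n] x ∈ R)
    {U V : Subgroup G} (hUV : IsChiefFactor U V) (hU : U ≤ D) : iterCommutator U (zpowers u) n ≤ V := by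
  have hRn := h.Rn
  have hUn := hUV.2.1
  have hVn := hUV.2.2.1
  by_cases hUR : U ⊓ R ≤ V
  · have hUp : IsPGroup p U := hQp.to_le (hU.trans h.leQ)
    refine iter_le hUV.2.1 hUV.2.2.1 (H39.chief_elementary hUV hUp).1 u n fun x hx => ?_
    exact hUR ⟨it_mem hUn u n hx, hD x (hU hx)⟩
  · obtain ⟨hcov, hch⟩ := H40.Critical.chief_inf hUV (N := U ⊓ R) inferInstance inf_le_left hUR
    have h3 := chief_R hQ hQp (h.le.trans h.leQ) hR hch inf_le_right
    have h4 : iterCommutator (U ⊓ R) (zpowers u) n ≤ U ⊓ R ⊓ V := H40.Critical.iter_le_of_le hn h3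
    rw [← hcov]
    exact (H40.Critical.iter_sup_normal_le _ _ _ _).trans (sup_le (h4.trans inf_le_right) le_rfl)

theorem t8_good (hp : 7 ≤ p) {R D : Subgroup G} (h : RD p (pCore p G) R D) {u : G}
    (hR : ∀ X : Subgroup G, X.Normal → X ≤ R → ∀ x ∈ X, ⁅u, ⁅u, ⁅u, x⁆⁆⁆ ∈ ⁅X, pCore p G⁆)
    (hD : ∀ x ∈ D, ⁅u, ⁅u, ⁅u, ⁅u, x⁆⁆⁆⁆ ∈ R) : H39.Good p (pCore p G) u := by
  have hQ : (pCore p G).Normal := inferInstance
  have hQp : IsPGroup p (pCore p G) := Cfsg.Agent.Lib.Cores.pCore_isPGroup p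
  intro U V hUV hU
  have hUn := hUV.2.1
  have hVn := hUV.2.2.1
  have hDn := h.Dn
  have hR' : ∀ {X Y : Subgroup G}, IsChiefFactor X Y → X ≤ R → iterCommutator X (zpowers u) 3 ≤ Y :=
    fun hXY hX => chief_R hQ hQp (h.le.trans h.leQ) hR hXY hX
  have hD' : ∀ {X Y : Subgroup G}, IsChiefFactor X Y → X ≤ D → iterCommutator X (zpowers u) 4 ≤ Y :=
    fun hXY hX => chief_D hQ hQp h hR (n := 4) (by norm_num) hD hXY hX
  by_cases hc : U ⊓ centralizer (D : Set G) ≤ V
  · have h6 : iterCommutator U (zpowers u) (4 + 3 - 1) ≤ V :=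
      H40.Critical.iterCommutator_le_aux (P := pCore p G) (Q := D) (Z := R) hQ hQp hDn h.leQ
        (by rw [commutator_comm]; exact h.DQ) h.le u (by norm_num) (fun X Y hXY hX => hD' hXY hX)
        (fun X Y hXY hX => hR' hXY hX) hUV hU hc
    exact H40.Critical.iter_le_of_le (by omega) h6
  · obtain ⟨hcov, hch⟩ := H40.Critical.chief_inf hUV (N := U ⊓ centralizer (D : Set G)) inferInstance inf_le_left hc
    have hle : U ⊓ centralizer (D : Set G) ≤ R := (inf_le_inf_right _ hU).trans h.cen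
    have h3 := hR' hch hle
    have h4 : iterCommutator (U ⊓ centralizer (D : Set G)) (zpowers u) (p - 1) ≤
        U ⊓ centralizer (D : Set G) ⊓ V := H40.Critical.iter_le_of_le (by omega) h3
    rw [← hcov]
    exact (H40.Critical.iter_sup_normal_le _ _ _ _).trans (sup_le (h4.trans inf_le_right) le_rfl)

/-- the bound `6` on the chief factors in `D`, used for T7c -/
theorem t8_six {Q R D : Subgroup G} (hQ : Q.Normal) (hQp : IsPGroup p Q) (h : RD p Q R D) {A : Subgroup G}
    (hR : ∀ X : Subgroup G, X.Normal → X ≤ R → ∀ x ∈ X, ∀ u ∈ A, ⁅u, ⁅u, ⁅u, x⁆⁆⁆ ∈ ⁅X, Q⁆)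
    (hD : ∀ x ∈ D, ∀ u ∈ A, ⁅u, ⁅u, ⁅u, ⁅u, ⁅u, ⁅u, x⁆⁆⁆⁆⁆⁆ ∈ R) :
    ∀ U V : Subgroup G, IsChiefFactor U V → U ≤ D → ∀ a ∈ A, iterCommutator U (zpowers a) 6 ≤ V := by
  intro U V hUV hU a ha
  exact chief_D hQ hQp h (fun X hX hXR x hx => hR X hX hXR x hx a ha) (n := 6) (by norm_num)
    (fun x hx => hD x hx a ha) hUV hU

end Cfsg.Agent.H575.J7
end

-- part: H215/J7/Assembly
section
/-!
# Assembly of S3068 (T9)
-/

set_option autoImplicit false

namespace Cfsg.Agent.H215.J7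

open Subgroup Cfsg Cfsg.Agent.H215.J7.Form
open scoped commutatorElement

universe u

attribute [local instance] DMod.iW DMod.iV DMod.aW DMod.aV DMod.fW DMod.fV

variable {G : Type u} [Group G] [Finite G] {p : ℕ} [Fact p.Prime]

theorem pCore_isP (p : ℕ) [Fact p.Prime] (G : Type u) [Group G] [Finite G] : IsPGroup p (pCore p G) :=
  Lib.Cores.pCore_isPGroup p

theorem fac (S : Sylow p G) {R D A : Subgroup G} (h : RD p (pCore p G) R D)
    (hA : Pick (S : Subgroup G) (pCore p G) R D A) {B : Subgroup G} (hBD : B ≤ D) :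
    DMod.Fac p (pCore p G) R B (S : Subgroup G) A where
  S_p := S.isPGroup'
  DS := hBD.trans (h.leQ.trans (H39.pCore_le_sylow S))
  AS := hA.le
  Ac := hA.comm
  quad := H587.S3068.t3_quad S h hA
  form := fun y hy hyA => H587.S3068.t3_form S h hA (hBD hy) hyA

section

variable {Q R D : Subgroup G} (m : DMod p Q R D)

omit [Finite G] [Fact p.Prime] in
theorem w_comm4 (hD : D.Normal) (u : G) {x : G} (hx : x ∈ D) :
    m.w ⁅u, ⁅u, ⁅u, ⁅u, x⁆⁆⁆⁆ = dl u (dl u (dl u (dl u (m.w x)))) := by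
  have hc : ∀ {x : G}, x ∈ D → ⁅u, x⁆ ∈ D := fun hx => DMod.comm_mem hD u hx
  rw [m.w_comm hD u (hc (hc (hc hx))), m.w_comm hD u (hc (hc hx)), m.w_comm hD u (hc hx), m.w_comm hD u hx]

omit [Finite G] [Fact p.Prime] in
theorem w_comm6 (hD : D.Normal) (u : G) {x : G} (hx : x ∈ D) :
    m.w ⁅u, ⁅u, ⁅u, ⁅u, ⁅u, ⁅u, x⁆⁆⁆⁆⁆⁆ = dl u (dl u (dl u (dl u (dl u (dl u (m.w x)))))) := by
  have hc : ∀ {x : G}, x ∈ D → ⁅u, x⁆ ∈ D := fun hx => DMod.comm_mem hD u hx
  rw [w_comm4 m hD u (hc (hc hx)), m.w_comm hD u (hc hx), m.w_comm hD u hx]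

end

/-- six in general -/
theorem t9_six' (S : Sylow p G) {R D A : Subgroup G} (h : RD p (pCore p G) R D)
    (hA : Pick (S : Subgroup G) (pCore p G) R D A) :
    ∀ x ∈ D, ∀ u ∈ A, ⁅u, ⁅u, ⁅u, ⁅u, ⁅u, ⁅u, x⁆⁆⁆⁆⁆⁆ ∈ R := by
  intro x hx u hu
  have hQ := pCore_normal p G
  have hpre := h.pre hQ
  obtain ⟨m⟩ := hpre.exists_dmod
  have h6 := m.six hpre (fac S h hA le_rfl)
  have hc : ∀ {x : G}, x ∈ D → ⁅u, x⁆ ∈ D := fun hx => DMod.comm_mem h.Dn u hx
  rw [← m.w_zero _ (hc (hc (hc (hc (hc (hc hx)))))), w_comm6 m h.Dn u hx]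
  have h0 : m.w x ∈ Ip ↥A (⊤ : AddSubgroup m.W) 0 := AddSubgroup.mem_top _
  have h1 := dl_mem (dl_mem (dl_mem (dl_mem (dl_mem (dl_mem h0 ⟨u, hu⟩) ⟨u, hu⟩) ⟨u, hu⟩) ⟨u, hu⟩) ⟨u, hu⟩) ⟨u, hu⟩
  rw [h6, AddSubgroup.mem_bot] at h1
  exact h1

/-- the bound on the chief factors in `D` -/
theorem six_chief (hp : 7 ≤ p) (S : Sylow p G) {R D A : Subgroup G} (h : RD p (pCore p G) R D)
    (hA : Pick (S : Subgroup G) (pCore p G) R D A) :
    ∀ U V : Subgroup G, IsChiefFactor U V → U ≤ D → ∀ a ∈ A, iterCommutator U (zpowers a) 6 ≤ V :=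
  H575.J7.t8_six (pCore_normal p G) (pCore_isP p G) h
    (fun X hX hXR x hx u hu => H587.S3068.t3_cubic S h hA hX hXR x hx u hu u hu u hu) (t9_six' S h hA)

/-- four on `D / R`, if `C_G(V) S ≠ G` -/
theorem four_t (hp : 7 ≤ p) (S : Sylow p G) {R D A : Subgroup G} (h : RD p (pCore p G) R D)
    (hA : Pick (S : Subgroup G) (pCore p G) R D A) {t : G} (ht : t * t ∈ pCore p G)
    (htA : ∀ a ∈ A, ⁅t, a⁆ ∈ pCore p G) (htV : ∀ v ∈ VV p (pCore p G), t * v = v * t → ∀ a ∈ A, a * v = v * a) :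
    ∀ x ∈ D, ∀ u ∈ A, ⁅u, ⁅u, ⁅u, ⁅u, x⁆⁆⁆⁆ ∈ R := by
  intro x hx u hu
  have hQ := pCore_normal p G
  have hpre := h.pre hQ
  obtain ⟨m⟩ := hpre.exists_dmod
  have hk := fac S h hA le_rfl
  have hp2 : p ≠ 2 := by omega
  have hVn := H352.J7.vv_normal p (pCore p G)
  have hc : ∀ {x : G}, x ∈ D → ⁅u, x⁆ ∈ D := fun hx => DMod.comm_mem h.Dn u hx
  rw [← m.w_zero _ (hc (hc (hc (hc hx)))), w_comm4 m h.Dn u hx]
  -- `Q` acts trivially
  have hQt : ∀ q ∈ pCore p G, ∀ w : m.W, q • w = w := by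
    intro q hq w
    obtain ⟨y, hy, rfl⟩ := m.w_surj w
    have h1 : dl q (m.w y) = 0 := by
      rw [← m.w_comm h.Dn q hy, m.w_zero _ (DMod.comm_mem h.Dn q hy)]
      have := commutator_mem_commutator hy hq
      have h2 := inv_mem (h.DQ this)
      rwa [commutatorElement_inv] at h2
    exact sub_eq_zero.1 h1
  have htt : ∀ w : m.W, t • t • w = w := fun w => by rw [← mul_smul]; exact hQt _ ht w
  have hta : ∀ a ∈ A, ∀ w : m.W, t • a • w = a • t • w := by
    intro a ha w
    have e : t * a = ⁅t, a⁆ * (a * t) := by rw [commutatorElement_def]; group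
    rw [← mul_smul, e, mul_smul, hQt _ (htA a ha), mul_smul]
  -- vectors of `V` fixed by `t` are fixed by `A`
  have hfixV : ∀ z : m.V, t • z = z → ∀ a : ↥A, a • z = z := by
    intro z hz a
    obtain ⟨v, hv, rfl⟩ := m.v_surj z
    have h1 : dl t (m.v v) = 0 := sub_eq_zero.2 hz
    rw [← m.v_comm hQ t hv, m.v_zero _ (DMod.comm_mem hVn t hv), commutatorElement_eq_one_iff_mul_comm] at h1
    have h2 := htV v hv h1 a a.2
    have h3 : dl (a : G) (m.v v) = 0 := by
      rw [← m.v_comm hQ (a : G) hv, m.v_zero _ (DMod.comm_mem hVn (a : G) hv), commutatorElement_eq_one_iff_mul_comm]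
      exact h2
    exact sub_eq_zero.1 h3
  let Yp : AddSubgroup m.W :=
    { carrier := {w | t • w = w}
      zero_mem' := smul_zero t
      add_mem' := by
        intro v w hv hw
        show t • (v + w) = v + w
        rw [smul_add, show t • v = v from hv, show t • w = w from hw]
      neg_mem' := by
        intro v hv
        show t • (-v) = -v
        rw [smul_neg, show t • v = v from hv] }
  let Ym : AddSubgroup m.W :=
    { carrier := {w | t • w = -w}
      zero_mem' := by show t • (0 : m.W) = -0; rw [smul_zero, neg_zero]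
      add_mem' := by
        intro v w hv hw
        show t • (v + w) = -(v + w)
        rw [smul_add, show t • v = -v from hv, show t • w = -w from hw]; abel
      neg_mem' := by
        intro v hv
        show t • (-v) = -(-v)
        rw [smul_neg, show t • v = -v from hv] }
  have hp4 : Ip ↥A Yp 4 = ⊥ := by
    refine m.four hp2 hpre hk (fun a y hy => ?_) (fun x hx y hy => hfixV _ ?_)
    · show t • (a : G) • y = (a : G) • y
      rw [hta a a.2, show t • y = y from hy]
    · rw [← m.f_smul hpre, show t • x = x from hx, show t • y = y from hy]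
  have hm4 : Ip ↥A Ym 4 = ⊥ := by
    refine m.four hp2 hpre hk (fun a y hy => ?_) (fun x hx y hy => hfixV _ ?_)
    · show t • (a : G) • y = -((a : G) • y)
      rw [hta a a.2, show t • y = -y from hy, smul_neg]
    · rw [← m.f_smul hpre, show t • x = -x from hx, show t • y = -y from hy]
      simp
  have hkill : ∀ Y : AddSubgroup m.W, Ip ↥A Y 4 = ⊥ → ∀ y ∈ Y, dl u (dl u (dl u (dl u y))) = 0 := by
    intro Y hY y hy
    have h0 : y ∈ Ip ↥A Y 0 := hy
    have h1 := dl_mem (dl_mem (dl_mem (dl_mem h0 ⟨u, hu⟩) ⟨u, hu⟩) ⟨u, hu⟩) ⟨u, hu⟩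
    rw [hY, AddSubgroup.mem_bot] at h1
    exact h1
  apply m.two_W hp2 hpre
  set w := m.w x
  have e1 : w + t • w ∈ Yp := by
    show t • (w + t • w) = w + t • w
    rw [smul_add, htt, add_comm]
  have e2 : w - t • w ∈ Ym := by
    show t • (w - t • w) = -(w - t • w)
    rw [smul_sub, htt]; abel
  have h1 := hkill Yp hp4 _ e1
  have h2 := hkill Ym hm4 _ e2
  rw [dl_add, dl_add, dl_add, dl_add] at h1
  rw [dl_sub, dl_sub, dl_sub, dl_sub] at h2
  have h3 := congrArg₂ (· + ·) h1 h2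
  simp only [add_zero] at h3
  rw [← h3]; abel

/-- four on `D / R`, if `C_G(V) S = G` -/
theorem four_b (hp : 7 ≤ p) (S : Sylow p G) {R D A : Subgroup G} (h : RD p (pCore p G) R D)
    (hA : Pick (S : Subgroup G) (pCore p G) R D A)
    (hN : centralizer (VV p (pCore p G) : Set G) ⊔ (S : Subgroup G) = ⊤) :
    ∀ x ∈ D, ∀ u ∈ A, ⁅u, ⁅u, ⁅u, ⁅u, x⁆⁆⁆⁆ ∈ R := by
  intro x hx u hu
  have hQ := pCore_normal p G
  have hp2 : p ≠ 2 := by omega
  have hVn := H352.J7.vv_normal p (pCore p G)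
  -- the statement for `B`
  have hB : ∀ B : Subgroup G, IsChiefFactor B R → B ≤ D → ∀ x ∈ B, ⁅u, ⁅u, ⁅u, ⁅u, x⁆⁆⁆⁆ ∈ R := by
    intro B hB hBD x hx
    have hpre := h.pre_chief hQ hB hBD
    obtain ⟨m⟩ := hpre.exists_dmod
    have hk := fac S h hA hBD
    have hc : ∀ {x : G}, x ∈ B → ⁅u, x⁆ ∈ B := fun hx => DMod.comm_mem hpre.Dn u hx
    rw [← m.w_zero _ (hc (hc (hc (hc hx)))), w_comm4 m hpre.Dn u hx]
    have hirr : ∀ N : AddSubgroup m.W, (∀ (g : G), ∀ w ∈ N, g • w ∈ N) → N = ⊥ ∨ N = ⊤ := by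
      intro N hN
      let K : Subgroup G :=
        { carrier := {x | x ∈ B ∧ m.w x ∈ N}
          one_mem' := ⟨one_mem _, by rw [m.w_one]; exact zero_mem _⟩
          mul_mem' := by
            rintro x y ⟨hx, hx'⟩ ⟨hy, hy'⟩
            exact ⟨mul_mem hx hy, by rw [m.w_add x hx y hy]; exact add_mem hx' hy'⟩
          inv_mem' := by
            rintro x ⟨hx, hx'⟩
            exact ⟨inv_mem hx, by rw [m.w_inv hx]; exact neg_mem hx'⟩ }
      have hKn : K.Normal := ⟨fun x hx g => ⟨hpre.Dn.conj_mem x hx.1 g, by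
        rw [m.w_smul g x hx.1]; exact hN g _ hx.2⟩⟩
      rcases hB.2.2.2 K hKn (fun x hx => ⟨hB.1.le hx, by
        rw [(m.w_zero x (hB.1.le hx)).2 hx]; exact zero_mem _⟩) (fun x hx => hx.1) with h1 | h1
      · left
        rw [eq_bot_iff]
        intro w hw
        obtain ⟨x, hx, rfl⟩ := m.w_surj w
        have h2 : x ∈ K := ⟨hx, hw⟩
        rw [h1] at h2
        exact (m.w_zero x hx).2 h2
      · right
        rw [eq_top_iff]
        intro w _
        obtain ⟨x, hx, rfl⟩ := m.w_surj w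
        have h2 : x ∈ K := by rw [h1]; exact hx
        exact h2.2
    have h6 := m.six hpre hk
    have hfix : ∀ x ∈ (⊤ : AddSubgroup m.W), ∀ y ∈ (⊤ : AddSubgroup m.W), ∀ a : ↥A, a • m.f x y = m.f x y := by
      intro x _ y _ a
      refine EndL.main (G := G) (p := p) (m.nsmul_W hpre) (m.nsmul_V) (f := m.f) (m.f_smul hpre)
        (L := centralizer (VV p (pCore p G) : Set G)) (S := (S : Subgroup G)) inferInstance ?_ S.isPGroup' hN hirr
        (a := (a : G)) ?_ ?_ x y
      · intro l hl v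
        obtain ⟨v, hv, rfl⟩ := m.v_surj v
        have h1 := mem_centralizer_iff.1 hl v hv
        have h2 : dl l (m.v v) = 0 := by
          rw [← m.v_comm hQ l hv, m.v_zero _ (DMod.comm_mem hVn l hv), commutatorElement_eq_one_iff_mul_comm]
          exact h1.symm
        exact sub_eq_zero.1 h2
      · intro w
        have h0 : w ∈ Ip ↥A (⊤ : AddSubgroup m.W) 0 := AddSubgroup.mem_top _
        have h7 : ∀ n, (dl (a : G))^[n] w ∈ Ip ↥A (⊤ : AddSubgroup m.W) n := by
          intro n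
          induction n with
          | zero => exact h0
          | succ n ih =>
            rw [Function.iterate_succ_apply']
            exact dl_mem ih a
        have h8 : (dl (a : G))^[6] w = 0 := by
          have := h7 6
          rw [h6, AddSubgroup.mem_bot] at this
          exact this
        obtain ⟨j, hj⟩ : ∃ j, p - 1 = j + 6 := ⟨p - 7, by omega⟩
        rw [hj, Function.iterate_add_apply, h8]
        have h9 : ∀ j, (dl (a : G))^[j] (0 : m.W) = 0 := by
          intro j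
          induction j with
          | zero => rfl
          | succ j ih => rw [Function.iterate_succ_apply', ih, dl_zero]
        exact h9 j
      · intro v
        exact m.hZ hpre hk a a v
    have h4 := m.four hp2 hpre hk (Y := ⊤) (fun a y _ => AddSubgroup.mem_top _) hfix
    have h0 : m.w x ∈ Ip ↥A (⊤ : AddSubgroup m.W) 0 := AddSubgroup.mem_top _
    have h1 := dl_mem (dl_mem (dl_mem (dl_mem h0 ⟨u, hu⟩) ⟨u, hu⟩) ⟨u, hu⟩) ⟨u, hu⟩
    rw [h4, AddSubgroup.mem_bot] at h1
    exact h1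
  -- all of `D`
  have hpre := h.pre hQ
  obtain ⟨m⟩ := hpre.exists_dmod
  have hc : ∀ {x : G}, x ∈ D → ⁅u, x⁆ ∈ D := fun hx => DMod.comm_mem h.Dn u hx
  have hiff : ∀ x ∈ D, ⁅u, ⁅u, ⁅u, ⁅u, x⁆⁆⁆⁆ ∈ R ↔ dl u (dl u (dl u (dl u (m.w x)))) = 0 := fun x hx => by
    rw [← w_comm4 m h.Dn u hx, m.w_zero _ (hc (hc (hc (hc hx))))]
  let K : Subgroup G :=
    { carrier := {x | x ∈ D ∧ dl u (dl u (dl u (dl u (m.w x)))) = 0}
      one_mem' := ⟨one_mem _, by rw [m.w_one, dl_zero, dl_zero, dl_zero, dl_zero]⟩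
      mul_mem' := by
        rintro x y ⟨hx, hx'⟩ ⟨hy, hy'⟩
        exact ⟨mul_mem hx hy, by
          rw [m.w_add x hx y hy, dl_add, dl_add, dl_add, dl_add, hx', hy', add_zero]⟩
      inv_mem' := by
        rintro x ⟨hx, hx'⟩
        exact ⟨inv_mem hx, by rw [m.w_inv hx, dl_neg, dl_neg, dl_neg, dl_neg, hx', neg_zero]⟩ }
  have hDK : D ≤ K := by
    refine h.soc.trans (sup_le ?_ (sSup_le ?_))
    · intro r hr
      refine ⟨h.le hr, ?_⟩
      rw [(m.w_zero r (h.le hr)).2 hr, dl_zero, dl_zero, dl_zero, dl_zero]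
    · rintro B ⟨hB1, hB2⟩ y hy
      exact ⟨hB2 hy, (hiff y (hB2 hy)).1 (hB B hB1 hB2 y hy)⟩
  exact (hiff x hx).2 (hDK hx).2

end Cfsg.Agent.H215.J7
end
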